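import Cfsg.Agent.H64.Dl.Exc3
import Cfsg.Agent.H53.HC.TwoBase

/-!
# Three inequivalent characters for `E₆(q)`, `p ∣ q ^ 2 - 1` (helper64, the last hole of S4769)

`J` = all nodes but the third one, `K` the component of type `A₄`, `j₀` the component of type `A₁`: no element of
`W ∖ W_J` permutes the simple roots of `J`, so `θ ⊗ 1`, `θ ⊗ St`, `θ ⊗ θ'` give irreducible characters.

* `many_E6_cross` : `Many p S 3` for every prime `p ∣ q ^ 2 - 1`.
-/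

set_option autoImplicit false
set_option linter.unusedSectionVars false

open scoped ComplexConjugate
open Cfsg

namespace Cfsg.Agent.H64.Dl

open Cfsg.Agent.OddOrderCharacters.Clifford Cfsg.Agent.Characters Cfsg.Agent.H53.HC Cfsg.Agent.H717.Two
  Cfsg.Agent.H246.Dl Cfsg.Agent.H35.ExcIdx Cfsg.Agent.H53.HC.ExcRows Cfsg.Agent.H53.HC.ExcIM
open CoxeterSystem Cfsg.Agent.ChevalleyStructure.CoxeterGeom Cfsg.Agent.Tits.Roots Cfsg.Agent.Tits.Core
  Cfsg.Agent.Tits.Exchange Cfsg.Agent.Nodes.Reps Cfsg.Agent.Nodes.BNOf Cfsg.Agent.Nodes.StabComb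
  Cfsg.Agent.Nodes.Bruhat Cfsg.Agent.Nodes.OppDec Cfsg.Agent.Nodes.LeviDec

section gen

variable {I W Y : Type*} [Fintype I] [DecidableEq I] [Group W] [Group Y] {M : CoxeterMatrix I}
  {cs : CoxeterSystem M W} {A : I → I → ℤ} {h : IsCartan M A} {p : ℕ} {T : Subgroup Y} {n : I → Y}
  {X : (I → ℤ) → Subgroup Y}

variable (R : RGD cs h p T n X)

include R

/-- the character from `φ ⊗ ρ` on `J = K ∪ {j₀}`, no element of `W ∖ W_J` permuting the simple roots of `J` -/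
theorem exists_irr_free_partial [Finite W] [Fintype Y] (hG : GG cs h T X = ⊤) {K : Set I} {j₀ : I}
    (hno : ∀ w : W, w ∉ WJ cs (K ∪ {j₀}) → ¬ Perm cs h (K ∪ {j₀}) w) (ho : Orth A K {j₀})
    (hC : Comb cs h (K ∪ {j₀}) K) {φ : ↥(MJ cs h X K) → ℂ} (hφ : Cusp cs h X K φ)
    {ρ : ↥(MJ cs h X {j₀}) → ℂ} (hρ : IsIrrCharacter _ ρ)
    (hρz : ∀ z ∈ Subgroup.center ↥(MJ cs h X {j₀}), ρ z = ρ 1)
    (hρs : ∀ [Fintype (UJ cs h X {j₀})], ∑ u : UJ cs h X {j₀}, ρ ⟨u, (RGD.Sup_mono fun _ hx => PosJ_subset {j₀} hx :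
      UJ cs h X {j₀} ≤ MJ cs h X {j₀}) u.2⟩ ≠ 0) :
    ∃ χ : Y → ℂ, IsIrrCharacter Y χ ∧ HasFix χ (VJ cs h X K) ∧ ∃ k : ℕ, 0 < k ∧ k ∣ Nat.card T ∧
      χ 1 = (PJ cs h T X (K ∪ {j₀})).index * (k * (φ 1 * ρ 1)) := by
  obtain ⟨ψ, hψ, hψv, hψval⟩ := exists_prod_left R ho hφ hρ hρz
  have hψ1 : ψ 1 = φ 1 * ρ 1 := by
    obtain ⟨hab, e⟩ := hψval 1 (one_mem _) 1 (one_mem _)
    simp only [mul_one] at e
    exact e
  rw [← hψ1]
  obtain ⟨χ, hχ, hd, ψ', hψ', he, hV, c, s, hres, hs⟩ :=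
    exists_irr_partial' R hG (K := K) (fun i hi => Or.inl hi) hC hψ hψv
      (fun w g hg hw hp => absurd hp (hno w hw))
  exact ⟨χ, hχ, hasFix_partial R ho hφ.irr hρs hψval hχ hψ' he hV hres hs, hd⟩

end gen

variable {r q l : ℕ} {M : CoxeterMatrix (Fin l)} {A : Fin l → Fin l → ℤ} {h : IsCartan M A} {f : Fin l → ℕ}
  {S : Type*} [Group S] {T : Subgroup S} {n : Fin l → S} {X : (Fin l → ℤ) → Subgroup S}

/-- **Three inequivalent characters**, no element of `W ∖ W_J` permuting the simple roots of `J = K ∪ {j₀}`. -/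
theorem many_free [Finite S] (hr : r.Prime) (hrq : r ∣ q) {j₀ i₀ : Fin l} {K J' : Set (Fin l)}
    (D : ExcData r q h f J' T n X) (hj₀' : j₀ ∉ K) (ho' : ∀ i ∈ K, M i j₀ = 2) (hj₀ : M j₀ i₀ = 3) (hf : f j₀ = q)
    (hC : Comb M.toCoxeterSystem h (K ∪ {j₀}) K)
    (hno : ∀ w : M.Group, w ∉ WJ M.toCoxeterSystem (K ∪ {j₀}) → ¬ Perm M.toCoxeterSystem h (K ∪ {j₀}) w)
    {θ : ↥(MJ M.toCoxeterSystem h X K) → ℂ} (hθ : Cusp M.toCoxeterSystem h X K θ) {e p : ℕ} (he : θ 1 = e)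
    (hpe : p ∣ e) (hj : In h X {j₀}) : Many p S 3 := by
  classical
  have := D.fin
  have : Fact r.Prime := ⟨hr⟩
  have : Fintype S := Fintype.ofFinite S
  obtain ⟨θ', hθ'⟩ := hj
  obtain ⟨e', he0', he'⟩ := Core.isIrr_apply_one hθ'.irr
  obtain ⟨ρ, hρ, hρz, hρ1, hρs⟩ := st_node' D.rgd j₀ i₀ hj₀ ((D.size j₀).trans hf)
  have ho2 : Orth A K {j₀} := orth_of h fun i hi j' hj' => by
    have : j' = j₀ := hj'
    rw [this]
    exact ho' i hi
  obtain ⟨χ, hχ, hχf, k, hk, hkT, hχ1⟩ := exists_irr_free_partial D.rgd D.gg hno ho2 hC hθ (ρ := 1)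
    Core.isIrr_one (fun z _ => rfl) (by
      intro hfu
      simp only [Pi.one_apply, Finset.sum_const, nsmul_eq_mul, mul_one]
      exact_mod_cast Finset.card_ne_zero.2 ⟨1, Finset.mem_univ _⟩)
  obtain ⟨χ', hχ', hχf', k', hk', hkT', hχ1'⟩ := exists_irr_free_partial D.rgd D.gg hno ho2 hC hθ hρ hρz hρs
  obtain ⟨ψ, hψ, hval⟩ := hθ.exists_prod D.rgd ho2 hθ'
  have hψ1 : ψ 1 = θ 1 * θ' 1 := by
    obtain ⟨hab, e⟩ := hval 1 (one_mem _) 1 (one_mem _)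
    simp only [mul_one] at e
    exact e
  obtain ⟨χ'', hχ'', k'', hk'', hχ1''⟩ := exists_HT_MJ D.rgd D.gg (K ∪ {j₀}) hψ.irr hψ.van
    (fun w g hg hw hp => absurd hp (hno w hw))
  obtain ⟨P, hP⟩ : ∃ P : ℕ, P = (PJ M.toCoxeterSystem h T X (K ∪ {j₀})).index := ⟨_, rfl⟩
  have hP0 : 0 < P := by
    rw [hP]
    exact Nat.pos_of_ne_zero Subgroup.index_ne_zero_of_finite
  have he0 : 0 < e := by
    refine Nat.pos_of_ne_zero ?_
    rintro rfl
    exact Core.isIrr_apply_one_ne_zero hθ.irr (by rw [he, Nat.cast_zero])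
  have e1 : χ 1 = (P * (k * e) : ℕ) := by rw [hχ1, hP, he, Pi.one_apply]; push_cast; ring
  have e2 : χ' 1 = (P * (k' * e) * q : ℕ) := by rw [hχ1', hP, he, hρ1]; push_cast; ring
  have e3 : χ'' 1 = (P * (k'' * (e * e')) : ℕ) := by rw [hχ1'', hψ1, hP, he, he']; push_cast; ring
  have hne : P * (k * e) ≠ P * (k' * e) * q := by
    intro heq
    have h1 : P * e * k = P * e * (k' * q) := by
      calc P * e * k = P * (k * e) := by ring
        _ = P * (k' * e) * q := heq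
        _ = P * e * (k' * q) := by ring
    have h2 : k = k' * q := Nat.eq_of_mul_eq_mul_left (Nat.mul_pos hP0 he0) h1
    apply not_dvd_T D.rgd D.gg
    refine Dvd.dvd.trans ?_ hkT
    rw [h2]
    exact Dvd.dvd.mul_left hrq _
  have c1 := H670.PSing.charDegree_eq_of e1
  have c2 := H670.PSing.charDegree_eq_of e2
  have c3 := H670.PSing.charDegree_eq_of e3
  have hlt : K.ncard < (K ∪ {j₀} : Set (Fin l)).ncard := by
    refine Set.ncard_lt_ncard ?_ (Set.toFinite _)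
    exact ⟨Set.subset_union_left, fun hcon => hj₀' (hcon (Or.inr rfl))⟩
  have n01 : ∀ σ : S ≃* S, ∃ g, χ (σ g) ≠ χ' g := fun σ => ⟨1, by
    rw [map_one, e1, e2]
    exact_mod_cast hne⟩
  have n20 := ht_ne_fix D.rgd D.gg hχ'' hχf hlt
  have n21 := ht_ne_fix D.rgd D.gg hχ'' hχf' hlt
  refine ⟨![⟨χ, hχ⟩, ⟨χ', hχ'⟩, ⟨χ'', hχ''.irr⟩], ?_, ?_⟩
  · intro i
    fin_cases i
    · show p ∣ charDegree χ
      rw [c1]; exact Dvd.dvd.mul_left (Dvd.dvd.mul_left hpe _) _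
    · show p ∣ charDegree χ'
      rw [c2]; exact Dvd.dvd.mul_right (Dvd.dvd.mul_left (Dvd.dvd.mul_left hpe _) _) _
    · show p ∣ charDegree χ''
      rw [c3]; exact Dvd.dvd.mul_left (Dvd.dvd.mul_left (Dvd.dvd.mul_right hpe _) _) _
  · intro i j hij σ
    fin_cases i <;> fin_cases j
    · exact absurd rfl hij
    · exact n01 σ
    · exact ne_aut_symm n20 σ
    · exact ne_aut_symm n01 σ
    · exact absurd rfl hij
    · exact ne_aut_symm n21 σ
    · exact n20 σ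
    · exact n21 σ
    · exact absurd rfl hij

/-! ### `E₆` -/

/-- the Cartan matrix of `E₆` -/
def a6 (i j : Fin 6) : ℤ := if i = j then 2 else if m6 i j = 3 then -1 else 0

theorem sl6 : ∀ i j, i ≠ j → m6 i j = 2 ∨ m6 i j = 3 := by decide +kernel

theorem a6_eq : a6 = ![![2, 0, -1, 0, 0, 0], ![0, 2, 0, -1, 0, 0], ![-1, 0, 2, -1, 0, 0],
    ![0, -1, -1, 2, -1, 0], ![0, 0, 0, -1, 2, -1], ![0, 0, 0, 0, -1, 2]] := by
  decide +kernel

theorem pairing6 {A : Fin 6 → Fin 6 → ℤ} (h : IsCartan CoxeterMatrix.E₆ A) (i : Fin 6) (x : Fin 6 → ℤ) :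
    pairing A i x = ∑ k, a6 i k * x k := by
  unfold pairing
  refine Finset.sum_congr rfl fun k _ => ?_
  rw [cartan_eq h sl6 i k]
  rfl

theorem aux6 {t s : ℤ} (h : 5 * t * (10 * t - s - 6 * t) + s * (2 * s - 5 * t) = 2) (hs : 0 ≤ s) :
    t = 0 ∧ s = 1 := by
  have h1 : (2 * s - 5 * t) ^ 2 + 15 * t ^ 2 = 4 := by linear_combination 2 * h
  have h2 : t = 0 := by
    by_contra hne
    have h5 : 1 ≤ t ^ 2 := by
      have := sq_nonneg t
      have h6 : t ^ 2 ≠ 0 := pow_ne_zero 2 hne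
      omega
    nlinarith [sq_nonneg (2 * s - 5 * t)]
  subst h2
  refine ⟨rfl, ?_⟩
  nlinarith

/-- the roots orthogonal to the component of type `A₄` -/
theorem perp6 {W : Type*} [Group W] [Fintype W] {cs : CoxeterSystem CoxeterMatrix.E₆ W} {A : Fin 6 → Fin 6 → ℤ}
    {h : IsCartan CoxeterMatrix.E₆ A} {K : Set (Fin 6)} (hK : ∀ i, i ≠ 2 → i ≠ 0 → i ∈ K) (x : Fin 6 → ℤ)
    (hx : ∀ i ∈ K, pairing A i x = 0) (h0 : 0 ≤ x) (hf : form cs h x x = form cs h (sr 0) (sr 0)) : x = sr 0 := by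
  have h1 := form_self_of_two (cs := cs) (h := h) (x := x) (j := 2) (j₀ := 0) (by decide) fun i hi hi' => hx i (hK i hi hi')
  have hn : form cs h (sr 2) (sr 2) = form cs h (sr 0) (sr 0) := form_eq_of_three (by decide +kernel)
  have hpos : 0 < form cs h (sr 0) (sr 0) := form_pos cs h (sr_ne_zero (0 : Fin 6))
  rw [hf, hn] at h1
  have h2 : x 2 * pairing A 2 x + x 0 * pairing A 0 x = 2 := by
    have : form cs h (sr 0) (sr 0) * (x 2 * pairing A 2 x + x 0 * pairing A 0 x) =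
      form cs h (sr 0) (sr 0) * 2 := by linarith
    exact mul_left_cancel₀ hpos.ne' this
  have e1 := hx 1 (hK 1 (by decide) (by decide))
  have e3 := hx 3 (hK 3 (by decide) (by decide))
  have e4 := hx 4 (hK 4 (by decide) (by decide))
  have e5 := hx 5 (hK 5 (by decide) (by decide))
  rw [pairing6 h, a6_eq] at e1 e3 e4 e5
  rw [pairing6 h, pairing6 h, a6_eq] at h2
  simp only [Fin.sum_univ_six, Matrix.cons_val] at e1 e3 e4 e5 h2
  obtain ⟨t, ht⟩ : ∃ t, x 1 = 3 * t ∧ x 5 = 2 * t := ⟨x 1 - x 5, by omega, by omega⟩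
  obtain ⟨ht1, ht5⟩ := ht
  have f2 : x 2 = 5 * t := by omega
  have f3 : x 3 = 6 * t := by omega
  have f4 : x 4 = 4 * t := by omega
  obtain ⟨h4, h5⟩ := aux6 (t := t) (s := x 0) (by rw [f2, f3] at h2; linear_combination h2) (h0 0)
  subst h4
  refine funext fun i => ?_
  fin_cases i
  · exact h5
  · exact ht1
  · exact f2
  · exact f3
  · exact f4
  · exact ht5

/-- the component of type `A₄` -/
def k6 : Fin 4 ↪ Fin 6 := ⟨![1, 3, 4, 5], by decide⟩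

theorem hk6 : ∀ i j, m6 (k6 i) (k6 j) = ExcRows.mA 4 i j := by decide +kernel

theorem mem6 (i : Fin 6) : i ∈ Set.range k6 ↔ i ≠ 2 ∧ i ≠ 0 := by
  constructor
  · rintro ⟨a, rfl⟩
    revert a; decide
  · intro hi
    have : ∀ i : Fin 6, i ≠ 2 ∧ i ≠ 0 → ∃ a, k6 a = i := by decide
    exact this i hi

theorem compl6 : ({i | i ≠ 2} : Set (Fin 6)) = Set.range k6 ∪ {0} := by
  ext i
  rw [Set.mem_union, mem6]
  simp only [Set.mem_ofPred_eq, Set.mem_singleton_iff]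
  revert i; decide

theorem or60 : ∀ i : Fin 6, i ≠ 2 → i ≠ 0 → m6 i 0 = 2 := by decide +kernel
theorem nb6 : ∀ i : Fin 6, i ≠ 2 → i ≠ 0 → ∃ i', i' ≠ 2 ∧ i' ≠ 0 ∧ m6 i i' = 3 := by decide +kernel

theorem comb6 {A : Fin 6 → Fin 6 → ℤ} {h : IsCartan CoxeterMatrix.E₆ A} [Finite CoxeterMatrix.E₆.Group] :
    Comb CoxeterMatrix.E₆.toCoxeterSystem h (Set.range k6 ∪ {0}) (Set.range k6) := by
  have := Fintype.ofFinite CoxeterMatrix.E₆.Group
  refine comb_of rfl (orth_of h fun i hi j hj => ?_) (exists_nb h fun i hi => ?_)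
    fun x hx h0 hf => perp6 (fun i h3 h1 => (mem6 i).2 ⟨h3, h1⟩) x hx h0 hf
  · have : j = 0 := hj
    rw [this]
    exact or60 i ((mem6 i).1 hi).1 ((mem6 i).1 hi).2
  · obtain ⟨i', h3, h1, hM⟩ := nb6 i ((mem6 i).1 hi).1 ((mem6 i).1 hi).2
    exact ⟨i', (mem6 i').2 ⟨h3, h1⟩, hM⟩

/-- three times a fundamental weight -/
def u6 : Fin 6 → ℤ := ![4, 3, 5, 6, 4, 2]

theorem pairing_u6 {A : Fin 6 → Fin 6 → ℤ} (h : IsCartan CoxeterMatrix.E₆ A) (i : Fin 6) :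
    (3 : ℤ) ∣ pairing A i u6 := by
  rw [pairing6 h, a6_eq]
  revert i
  decide +kernel

theorem dvd_aux {p q e t : ℕ} (hp : p.Prime) (hpq : p ∣ q ^ 2 - 1)
    (he : e * t = ∏ i ∈ Finset.range 4, (q ^ (i + 1) - 1)) (ht : t ∣ Nat.gcd 5 (q - 1)) : p ∣ e := by
  have h1 : p * p ∣ e * t := by
    rw [he]
    simp only [Finset.prod_range_succ, Finset.prod_range_zero, one_mul]
    have h4 : p ∣ q ^ 4 - 1 := by
      refine hpq.trans ?_
      have := Nat.sub_dvd_pow_sub_pow (q ^ 2) 1 2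
      rwa [one_pow, ← pow_mul] at this
    have h2 : p * p ∣ (q ^ (1 + 1) - 1) * (q ^ (3 + 1) - 1) := Nat.mul_dvd_mul hpq h4
    refine h2.trans ⟨(q ^ (0 + 1) - 1) * (q ^ (2 + 1) - 1), by ring⟩
  have ht5 : t ∣ 5 := ht.trans (Nat.gcd_dvd_left _ _)
  rcases (Nat.dvd_prime (by norm_num)).1 ht5 with rfl | rfl
  · rw [mul_one] at h1
    exact (Dvd.intro _ rfl).trans h1
  · by_cases h5 : p = 5
    · subst h5
      exact Nat.dvd_of_mul_dvd_mul_right (by norm_num) h1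
    · have h6 : p ∣ e * 5 := (Dvd.intro _ rfl).trans h1
      rcases hp.dvd_mul.1 h6 with h7 | h7
      · exact h7
      · exact absurd ((Nat.prime_dvd_prime_iff_eq hp (by norm_num)).1 h7) h5

open Cfsg.Lie Cfsg.Agent.Nodes.RGDChev in
/-- **`E₆(q)`, `p ∣ q ^ 2 - 1`.** -/
theorem many_E6_cross {K : Type*} [Field K] [Fintype K] {S : Type*} [Group S] {p : ℕ} (hp : p.Prime)
    (hpK : p ∣ Fintype.card K ^ 2 - 1) (e : S ≃* ↥(chevE6.group K)) : Many p S 3 := by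
  obtain ⟨r, f, hr, hf, hF, hch⟩ := exists_prime_pow' K
  have := finite_group (K := K) chevE6
  have D := data_E6_3 hr hf hF
  have := D.fin
  rw [hF] at hpK
  obtain ⟨θ, d, t, hθ, hd, hdt, ht⟩ := H622.Levi.cusp_chain D.rgd (m := 4) (by norm_num) k6 hk6 0 (D.size _)
  refine Many.of_equiv e (many_free hr (dvd_pow_self r hf) (j₀ := 0) (i₀ := 2) (K := Set.range k6) D
    (fun hc => ((mem6 0).1 hc).2 rfl) (fun i hi => or60 i ((mem6 i).1 hi).1 ((mem6 i).1 hi).2) (by decide +kernel) rfl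
    comb6 (fun w hw => ?_) hθ hd (dvd_aux hp hpK hdt ht) (in_node D 0 2 (by decide +kernel)))
  refine not_perm_of_mod (j := 2) (u := u6) (fun i => ?_) (pairing_u6 hpE6.isCartan) (by decide) hw
  rw [← compl6]
  exact Iff.rfl

end Cfsg.Agent.H64.Dl
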