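import Cfsg.Agent.H64.Dl.TabTwE
import Cfsg.Agent.H35.ExcIdxTw
import Cfsg.Agent.H246.Dl.Defs

/-!
# Three characters of `²E₆(q)` of degree divisible by `3`, `q ≡ 2 mod 3` (helper64, for S4769)

Three constituents of the permutation character on the cosets of the parabolic subgroup of type `²A₅`.
-/

set_option autoImplicit false

namespace Cfsg.Agent.H64.Dl.Sph.TwE

open Cfsg.Agent.H967.Sph Cfsg.Agent.Nodes
open CoxeterSystem Cfsg.Agent.ChevalleyStructure.CoxeterGeom Cfsg.Agent.Tits.Roots Cfsg.Agent.Tits.Core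
  Cfsg.Agent.Nodes.Reps Cfsg.Agent.Nodes.BNOf Cfsg.Agent.Nodes.Bruhat Cfsg.Agent.Nodes.LeviDec

universe u

theorem row0 (x : ℚ) (b : Fin 5 → ℚ) : ∑ c', ev x (mat 0 c') * b c' =
    (x + x ^ 2 + x ^ 4 + x ^ 5 + x ^ 6 + x ^ 7 + x ^ 9 + x ^ 10) * b 1 := by
  rw [Fin.sum_univ_five]
  change ev x [] * b 0 + ev x [0, 1, 1, 0, 1, 1, 1, 1, 0, 1, 1] * b 1 + ev x [] * b 2 + ev x [] * b 3 + ev x [] * b 4 = _
  simp only [ev_cons, ev_nil]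
  push_cast
  ring

theorem row1 (x : ℚ) (b : Fin 5 → ℚ) : ∑ c', ev x (mat 1 c') * b c' =
    (1) * b 0 + (-1 + x + x ^ 2 + x ^ 4 + x ^ 6) * b 1 + (x ^ 5 + x ^ 7 + x ^ 9) * b 2 + (x ^ 10) * b 3 := by
  rw [Fin.sum_univ_five]
  change ev x [1] * b 0 + ev x [-1, 1, 1, 0, 1, 0, 1] * b 1 + ev x [0, 0, 0, 0, 0, 1, 0, 1, 0, 1] * b 2 + ev x [0, 0, 0, 0, 0, 0, 0, 0, 0, 0, 1] * b 3 + ev x [] * b 4 = _
  simp only [ev_cons, ev_nil]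
  push_cast
  ring

theorem row2 (x : ℚ) (b : Fin 5 → ℚ) : ∑ c', ev x (mat 2 c') * b c' =
    (1 + x + x ^ 3 + x ^ 4) * b 1 + (-1 + x ^ 2 - x ^ 3 + x ^ 5) * b 2 + (x ^ 6 + x ^ 7 + x ^ 9 + x ^ 10) * b 3 := by
  rw [Fin.sum_univ_five]
  change ev x [] * b 0 + ev x [1, 1, 0, 1, 1] * b 1 + ev x [-1, 0, 1, -1, 0, 1] * b 2 + ev x [0, 0, 0, 0, 0, 0, 1, 1, 0, 1, 1] * b 3 + ev x [] * b 4 = _
  simp only [ev_cons, ev_nil]
  push_cast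
  ring

theorem row3 (x : ℚ) (b : Fin 5 → ℚ) : ∑ c', ev x (mat 3 c') * b c' =
    (1) * b 1 + (x + x ^ 3 + x ^ 5) * b 2 + (-1 + x ^ 2 - x ^ 3 + x ^ 4 + x ^ 6 + x ^ 7 + x ^ 9) * b 3 + (x ^ 10) * b 4 := by
  rw [Fin.sum_univ_five]
  change ev x [] * b 0 + ev x [1] * b 1 + ev x [0, 1, 0, 1, 0, 1] * b 2 + ev x [-1, 0, 1, -1, 1, 0, 1, 1, 0, 1] * b 3 + ev x [0, 0, 0, 0, 0, 0, 0, 0, 0, 0, 1] * b 4 = _
  simp only [ev_cons, ev_nil]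
  push_cast
  ring

theorem row4 (x : ℚ) (b : Fin 5 → ℚ) : ∑ c', ev x (mat 4 c') * b c' =
    (1 + x + x ^ 3 + x ^ 4 + x ^ 5 + x ^ 6 + x ^ 8 + x ^ 9) * b 3 + (-1 + x ^ 2 - x ^ 3 + x ^ 7 - x ^ 8 + x ^ 10) * b 4 := by
  rw [Fin.sum_univ_five]
  change ev x [] * b 0 + ev x [] * b 1 + ev x [] * b 2 + ev x [1, 1, 0, 1, 1, 1, 1, 0, 1, 1] * b 3 + ev x [-1, 0, 1, -1, 0, 0, 0, 1, -1, 0, 1] * b 4 = _
  simp only [ev_cons, ev_nil]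
  push_cast
  ring

theorem rowK (x : ℚ) (b : Fin 5 → ℚ) : ∑ c, ev x (kk c) * b c =
    (1) * b 0 + (x + x ^ 2 + x ^ 4 + x ^ 5 + x ^ 6 + x ^ 7 + x ^ 9 + x ^ 10) * b 1 + (x ^ 6 + x ^ 8 + x ^ 10 + x ^ 11 + x ^ 13 + x ^ 15) * b 2 + (x ^ 11 + x ^ 12 + x ^ 14 + x ^ 15 + x ^ 16 + x ^ 17 + x ^ 19 + x ^ 20) * b 3 + (x ^ 21) * b 4 := by
  rw [Fin.sum_univ_five]
  change ev x [1] * b 0 + ev x [0, 1, 1, 0, 1, 1, 1, 1, 0, 1, 1] * b 1 + ev x [0, 0, 0, 0, 0, 0, 1, 0, 1, 0, 1, 1, 0, 1, 0, 1] * b 2 + ev x [0, 0, 0, 0, 0, 0, 0, 0, 0, 0, 0, 1, 1, 0, 1, 1, 1, 1, 0, 1, 1] * b 3 + ev x [0, 0, 0, 0, 0, 0, 0, 0, 0, 0, 0, 0, 0, 0, 0, 0, 0, 0, 0, 0, 0, 1] * b 4 = _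
  simp only [ev_cons, ev_nil]
  push_cast
  ring



/-- uniqueness of the eigenvector -/
theorem uniq {x θ : ℚ} (hx : 0 < x) (a : Fin 5 → ℚ) (ha : a 0 = 1)
    (he : ∀ c, ∑ c', ev x (mat c c') * a c' = θ * a c)
    (hdet : x * (1 + x ^ 2 + x ^ 4) * (1 + x + x ^ 3 + x ^ 4) - (-1 + x ^ 2 - x ^ 3 + x ^ 5 - θ) ≠ 0)
    (b : Fin 5 → ℚ) (hb : ∀ c, ∑ c', ev x (mat c c') * b c' = θ * b c) : ∀ c, b c = b 0 * a c := by
  have hd : ∀ c, ∑ c', ev x (mat c c') * (b c' - b 0 * a c') = θ * (b c - b 0 * a c) := by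
    intro c
    have h1 : ∑ c', ev x (mat c c') * (b c' - b 0 * a c') =
        ∑ c', ev x (mat c c') * b c' - b 0 * ∑ c', ev x (mat c c') * a c' := by
      rw [Finset.mul_sum, ← Finset.sum_sub_distrib]
      exact Finset.sum_congr rfl fun _ _ => by ring
    rw [h1, hb, he]
    ring
  obtain ⟨c, hc⟩ : ∃ c : Fin 5 → ℚ, c = fun i => b i - b 0 * a i := ⟨_, rfl⟩
  have hd' : ∀ i, ∑ i', ev x (mat i i') * c i' = θ * c i := by rw [hc]; exact hd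
  have h0 : c 0 = 0 := by rw [hc]; simp only [ha, mul_one, sub_self]
  have r0 := hd' 0
  have r1 := hd' 1
  have r2 := hd' 2
  have r3 := hd' 3
  rw [row0] at r0
  rw [row1] at r1
  rw [row2] at r2
  rw [row3] at r3
  have h1 : c 1 = 0 := by
    rw [h0, mul_zero] at r0
    exact (mul_eq_zero.1 r0).resolve_left (by positivity)
  rw [h0, h1] at r1
  rw [h1] at r2
  rw [h1] at r3
  have h3 : c 3 = 0 := by
    have h4 : x ^ 10 * (x * (1 + x ^ 2 + x ^ 4) * (1 + x + x ^ 3 + x ^ 4) - (-1 + x ^ 2 - x ^ 3 + x ^ 5 - θ)) * c 3 = 0 := by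
      linear_combination (x ^ 5 + x ^ 7 + x ^ 9) * r2 - (-1 + x ^ 2 - x ^ 3 + x ^ 5 - θ) * r1
    rcases mul_eq_zero.1 h4 with h5 | h5
    · rcases mul_eq_zero.1 h5 with h6 | h6
      · exact absurd h6 (by positivity)
      · exact absurd h6 hdet
    · exact h5
  have h2 : c 2 = 0 := by
    rw [h3] at r1
    have h4 : (x ^ 5 + x ^ 7 + x ^ 9) * c 2 = 0 := by linear_combination r1
    exact (mul_eq_zero.1 h4).resolve_left (by positivity)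
  have h4 : c 4 = 0 := by
    rw [h2, h3] at r3
    have h5 : x ^ 10 * c 4 = 0 := by linear_combination r3
    exact (mul_eq_zero.1 h5).resolve_left (by positivity)
  intro i
  have h5 : c i = 0 := by
    fin_cases i
    · exact h0
    · exact h1
    · exact h2
    · exact h3
    · exact h4
  rw [hc] at h5
  exact sub_eq_zero.1 h5

/-! ### the three solutions -/

/-- the first one -/
def a1 (x : ℚ) : Fin 5 → ℚ := ![1, -1 / (x * (x + 1)), 1 / x ^ 3, -1 / (x ^ 4 * (x + 1)), 1 / x ^ 6]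

/-- the second one -/
def a2 (x : ℚ) : Fin 5 → ℚ := ![1, -(x ^ 5 + x ^ 3 - x ^ 2 + 1) / (x * (x + 1) * (x ^ 3 + 1) * (x ^ 5 + 1)),
  (x - 1) / (x ^ 4 * (x ^ 5 + 1)), (x ^ 5 - x ^ 3 + x ^ 2 + 1) / (x ^ 7 * (x + 1) * (x ^ 3 + 1) * (x ^ 5 + 1)),
  -1 / x ^ 12]

/-- the third one -/
def a3 (x : ℚ) : Fin 5 → ℚ := ![1, (x - 1) / (x * (x ^ 5 + 1)),
  -(x ^ 2 - x + 1) * (x + 1) / (x ^ 4 * (x ^ 2 + x + 1) * (x ^ 5 + 1)), -(x - 1) / (x ^ 7 * (x ^ 5 + 1)), 1 / x ^ 12]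

theorem eig1 {x : ℚ} (hx : 0 < x) (c : Fin 5) :
    ∑ c', ev x (mat c c') * a1 x c' = -((x ^ 3 + 1) * (x ^ 5 + 1)) * a1 x c := by
  fin_cases c
  · change ∑ c', ev x (mat 0 c') * a1 x c' = _ * a1 x 0
    rw [row0]
    change _ * (-1 / (x * (x + 1))) = _ * 1
    field_simp
    ring
  · change ∑ c', ev x (mat 1 c') * a1 x c' = _ * a1 x 1
    rw [row1]
    change _ * 1 + _ * (-1 / (x * (x + 1))) + _ * (1 / x ^ 3) + _ * (-1 / (x ^ 4 * (x + 1))) = _ * (-1 / (x * (x + 1)))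
    field_simp
    ring
  · change ∑ c', ev x (mat 2 c') * a1 x c' = _ * a1 x 2
    rw [row2]
    change _ * (-1 / (x * (x + 1))) + _ * (1 / x ^ 3) + _ * (-1 / (x ^ 4 * (x + 1))) = _ * (1 / x ^ 3)
    field_simp
    ring
  · change ∑ c', ev x (mat 3 c') * a1 x c' = _ * a1 x 3
    rw [row3]
    change _ * (-1 / (x * (x + 1))) + _ * (1 / x ^ 3) + _ * (-1 / (x ^ 4 * (x + 1))) + _ * (1 / x ^ 6) =
      _ * (-1 / (x ^ 4 * (x + 1)))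
    field_simp
    ring
  · change ∑ c', ev x (mat 4 c') * a1 x c' = _ * a1 x 4
    rw [row4]
    change _ * (-1 / (x ^ 4 * (x + 1))) + _ * (1 / x ^ 6) = _ * (1 / x ^ 6)
    field_simp
    ring

theorem eig2 {x : ℚ} (hx : 0 < x) (c : Fin 5) :
    ∑ c', ev x (mat c c') * a2 x c' = -(x ^ 5 + x ^ 3 - x ^ 2 + 1) * a2 x c := by
  have hx1 : x + 1 ≠ 0 := by positivity
  have hx3 : x ^ 3 + 1 ≠ 0 := by positivity
  have hx5 : x ^ 5 + 1 ≠ 0 := by positivity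
  fin_cases c
  · change ∑ c', ev x (mat 0 c') * a2 x c' = _ * a2 x 0
    rw [row0]
    change _ * (-(x ^ 5 + x ^ 3 - x ^ 2 + 1) / (x * (x + 1) * (x ^ 3 + 1) * (x ^ 5 + 1))) = _ * 1
    field_simp
    ring
  · change ∑ c', ev x (mat 1 c') * a2 x c' = _ * a2 x 1
    rw [row1]
    change _ * 1 + _ * (-(x ^ 5 + x ^ 3 - x ^ 2 + 1) / (x * (x + 1) * (x ^ 3 + 1) * (x ^ 5 + 1))) +
      _ * ((x - 1) / (x ^ 4 * (x ^ 5 + 1))) +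
      _ * ((x ^ 5 - x ^ 3 + x ^ 2 + 1) / (x ^ 7 * (x + 1) * (x ^ 3 + 1) * (x ^ 5 + 1))) =
      _ * (-(x ^ 5 + x ^ 3 - x ^ 2 + 1) / (x * (x + 1) * (x ^ 3 + 1) * (x ^ 5 + 1)))
    field_simp
    ring
  · change ∑ c', ev x (mat 2 c') * a2 x c' = _ * a2 x 2
    rw [row2]
    change _ * (-(x ^ 5 + x ^ 3 - x ^ 2 + 1) / (x * (x + 1) * (x ^ 3 + 1) * (x ^ 5 + 1))) +
      _ * ((x - 1) / (x ^ 4 * (x ^ 5 + 1))) +
      _ * ((x ^ 5 - x ^ 3 + x ^ 2 + 1) / (x ^ 7 * (x + 1) * (x ^ 3 + 1) * (x ^ 5 + 1))) =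
      _ * ((x - 1) / (x ^ 4 * (x ^ 5 + 1)))
    field_simp
    ring
  · change ∑ c', ev x (mat 3 c') * a2 x c' = _ * a2 x 3
    rw [row3]
    change _ * (-(x ^ 5 + x ^ 3 - x ^ 2 + 1) / (x * (x + 1) * (x ^ 3 + 1) * (x ^ 5 + 1))) +
      _ * ((x - 1) / (x ^ 4 * (x ^ 5 + 1))) +
      _ * ((x ^ 5 - x ^ 3 + x ^ 2 + 1) / (x ^ 7 * (x + 1) * (x ^ 3 + 1) * (x ^ 5 + 1))) + _ * (-1 / x ^ 12) =
      _ * ((x ^ 5 - x ^ 3 + x ^ 2 + 1) / (x ^ 7 * (x + 1) * (x ^ 3 + 1) * (x ^ 5 + 1)))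
    field_simp
    ring
  · change ∑ c', ev x (mat 4 c') * a2 x c' = _ * a2 x 4
    rw [row4]
    change _ * ((x ^ 5 - x ^ 3 + x ^ 2 + 1) / (x ^ 7 * (x + 1) * (x ^ 3 + 1) * (x ^ 5 + 1))) + _ * (-1 / x ^ 12) =
      _ * (-1 / x ^ 12)
    field_simp
    ring

theorem eig3 {x : ℚ} (hx : 0 < x) (c : Fin 5) :
    ∑ c', ev x (mat c c') * a3 x c' = ((x ^ 3 + 1) * (x ^ 2 - 1)) * a3 x c := by
  have hx3 : x ^ 2 + x + 1 ≠ 0 := by positivity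
  have hx5 : x ^ 5 + 1 ≠ 0 := by positivity
  fin_cases c
  · change ∑ c', ev x (mat 0 c') * a3 x c' = _ * a3 x 0
    rw [row0]
    change _ * ((x - 1) / (x * (x ^ 5 + 1))) = _ * 1
    field_simp
    ring
  · change ∑ c', ev x (mat 1 c') * a3 x c' = _ * a3 x 1
    rw [row1]
    change _ * 1 + _ * ((x - 1) / (x * (x ^ 5 + 1))) +
      _ * (-(x ^ 2 - x + 1) * (x + 1) / (x ^ 4 * (x ^ 2 + x + 1) * (x ^ 5 + 1))) +
      _ * (-(x - 1) / (x ^ 7 * (x ^ 5 + 1))) = _ * ((x - 1) / (x * (x ^ 5 + 1)))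
    field_simp
    ring
  · change ∑ c', ev x (mat 2 c') * a3 x c' = _ * a3 x 2
    rw [row2]
    change _ * ((x - 1) / (x * (x ^ 5 + 1))) +
      _ * (-(x ^ 2 - x + 1) * (x + 1) / (x ^ 4 * (x ^ 2 + x + 1) * (x ^ 5 + 1))) +
      _ * (-(x - 1) / (x ^ 7 * (x ^ 5 + 1))) =
      _ * (-(x ^ 2 - x + 1) * (x + 1) / (x ^ 4 * (x ^ 2 + x + 1) * (x ^ 5 + 1)))
    field_simp
    ring
  · change ∑ c', ev x (mat 3 c') * a3 x c' = _ * a3 x 3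
    rw [row3]
    change _ * ((x - 1) / (x * (x ^ 5 + 1))) +
      _ * (-(x ^ 2 - x + 1) * (x + 1) / (x ^ 4 * (x ^ 2 + x + 1) * (x ^ 5 + 1))) +
      _ * (-(x - 1) / (x ^ 7 * (x ^ 5 + 1))) + _ * (1 / x ^ 12) = _ * (-(x - 1) / (x ^ 7 * (x ^ 5 + 1)))
    field_simp
    ring
  · change ∑ c', ev x (mat 4 c') * a3 x c' = _ * a3 x 4
    rw [row4]
    change _ * (-(x - 1) / (x ^ 7 * (x ^ 5 + 1))) + _ * (1 / x ^ 12) = _ * (1 / x ^ 12)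
    field_simp
    ring

theorem degK (x : ℚ) : ∑ c, ev x (kk c) = (1 + x + x ^ 2) * (x ^ 4 - x ^ 2 + 1) * (x ^ 4 + 1) * (x + 1) * (x ^ 2 + 1) *
    (x ^ 2 - x + 1) * (x ^ 6 - x ^ 3 + 1) := by
  have h1 := rowK x (fun _ => 1)
  simp only [mul_one] at h1
  rw [h1]
  ring

theorem deg1 {x : ℚ} (hx : 0 < x) :
    x * (x ^ 4 + 1) * (x ^ 6 - x ^ 3 + 1) * ∑ c, ev x (kk c) * a1 x c ^ 2 = ∑ c, ev x (kk c) := by
  rw [degK, rowK x (fun c => a1 x c ^ 2)]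
  change _ * (_ * 1 ^ 2 + _ * (-1 / (x * (x + 1))) ^ 2 + _ * (1 / x ^ 3) ^ 2 + _ * (-1 / (x ^ 4 * (x + 1))) ^ 2 +
    _ * (1 / x ^ 6) ^ 2) = _
  field_simp
  ring

theorem deg2 {x : ℚ} (hx : 0 < x) :
    x ^ 3 * (x + 1) ^ 4 * (x ^ 2 - x + 1) ^ 2 * (x ^ 4 - x ^ 3 + x ^ 2 - x + 1) * (x ^ 6 - x ^ 3 + 1) *
      ∑ c, ev x (kk c) * a2 x c ^ 2 = 2 * ∑ c, ev x (kk c) := by
  have hx1 : x + 1 ≠ 0 := by positivity
  have hx3 : x ^ 3 + 1 ≠ 0 := by positivity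
  have hx5 : x ^ 5 + 1 ≠ 0 := by positivity
  rw [degK, rowK x (fun c => a2 x c ^ 2)]
  change _ * (_ * 1 ^ 2 + _ * (-(x ^ 5 + x ^ 3 - x ^ 2 + 1) / (x * (x + 1) * (x ^ 3 + 1) * (x ^ 5 + 1))) ^ 2 +
    _ * ((x - 1) / (x ^ 4 * (x ^ 5 + 1))) ^ 2 +
    _ * ((x ^ 5 - x ^ 3 + x ^ 2 + 1) / (x ^ 7 * (x + 1) * (x ^ 3 + 1) * (x ^ 5 + 1))) ^ 2 + _ * (-1 / x ^ 12) ^ 2) = _
  field_simp
  ring

theorem deg3 {x : ℚ} (hx : 0 < x) :
    x ^ 3 * (x ^ 2 + x + 1) ^ 2 * (x ^ 4 + 1) * (x ^ 4 - x ^ 3 + x ^ 2 - x + 1) * (x ^ 6 - x ^ 3 + 1) *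
      ∑ c, ev x (kk c) * a3 x c ^ 2 = 2 * ∑ c, ev x (kk c) := by
  have hx3 : x ^ 2 + x + 1 ≠ 0 := by positivity
  have hx5 : x ^ 5 + 1 ≠ 0 := by positivity
  rw [degK, rowK x (fun c => a3 x c ^ 2)]
  change _ * (_ * 1 ^ 2 + _ * ((x - 1) / (x * (x ^ 5 + 1))) ^ 2 +
    _ * (-(x ^ 2 - x + 1) * (x + 1) / (x ^ 4 * (x ^ 2 + x + 1) * (x ^ 5 + 1))) ^ 2 +
    _ * (-(x - 1) / (x ^ 7 * (x ^ 5 + 1))) ^ 2 + _ * (1 / x ^ 12) ^ 2) = _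
  field_simp
  ring

section chars

variable {W : Type*} {Y : Type u} [Group W] [Finite W] [Group Y] [Finite Y]
  {cs : CoxeterSystem CoxeterMatrix.F₄ W} {p : ℕ} {T : Subgroup Y} {n : Fin 4 → Y} {X : (Fin 4 → ℤ) → Subgroup Y}
  (R : RGD cs RGDTwE6.isCartan p T n X) (hG : GG cs RGDTwE6.isCartan T X = ⊤) {q : ℕ} (hq : 2 ≤ q)
  (hc : ∀ i, Nat.card (X (sr i)) = q ^ e i)

include R hG hq hc

theorem char_of {θ : ℚ} (a : Fin 5 → ℚ) (ha : a 0 = 1) (he : ∀ c, ∑ c', ev q (mat c c') * a c' = θ * a c)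
    (hdet : (q : ℚ) * (1 + (q : ℚ) ^ 2 + (q : ℚ) ^ 4) * (1 + q + (q : ℚ) ^ 3 + (q : ℚ) ^ 4) -
      (-1 + (q : ℚ) ^ 2 - (q : ℚ) ^ 3 + (q : ℚ) ^ 5 - θ) ≠ 0)
    (d : ℕ) (hd : (d : ℚ) * ∑ c, ev q (kk c) * a c ^ 2 = ∑ c, ev q (kk c)) :
    ∃ χ : Y → ℂ, Cfsg.IsIrrCharacter Y χ ∧ χ 1 = d := by
  have hx : (0 : ℚ) < q := by
    have : 0 < q := by omega
    exact_mod_cast this
  have ho : tab.cls tab.o = 0 := by decide +kernel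
  obtain ⟨χ, h1, -, h2⟩ := exists_char_mat R hG tab q e hc DL mat chk hcr wl (by decide +kernel) hws kk chkK θ a
    (by rw [ho]; exact ha) he (fun b hb c => by rw [ho]; exact uniq hx a ha he hdet b hb c) d hd
  exact ⟨χ, h1, h2⟩

/-- **Three characters.** -/
theorem three_chars (h3 : q % 3 = 2) : H246.Dl.Many 3 Y 3 := by
  have hx : (2 : ℚ) ≤ q := by exact_mod_cast hq
  have hx0 : (0 : ℚ) < q := by linarith
  obtain ⟨f18, h18⟩ : ∃ f : ℕ, f + q ^ 3 = q ^ 6 + 1 := by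
    refine ⟨q ^ 6 + 1 - q ^ 3, Nat.sub_add_cancel ?_⟩
    have := Nat.pow_le_pow_right (show 1 ≤ q by omega) (show 3 ≤ 6 by norm_num)
    omega
  obtain ⟨f10, h10⟩ : ∃ f : ℕ, f + (q ^ 3 + q) = q ^ 4 + q ^ 2 + 1 := by
    refine ⟨q ^ 4 + q ^ 2 + 1 - (q ^ 3 + q), Nat.sub_add_cancel ?_⟩
    have h1 := Nat.pow_le_pow_right (show 1 ≤ q by omega) (show 3 ≤ 4 by norm_num)
    have h2 := Nat.pow_le_pow_right (show 1 ≤ q by omega) (show 1 ≤ 2 by norm_num)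
    rw [pow_one] at h2
    omega
  have e18 : (f18 : ℚ) = (q : ℚ) ^ 6 - (q : ℚ) ^ 3 + 1 := by
    have : (f18 : ℚ) + (q : ℚ) ^ 3 = (q : ℚ) ^ 6 + 1 := by exact_mod_cast h18
    linarith
  have e10 : (f10 : ℚ) = (q : ℚ) ^ 4 - (q : ℚ) ^ 3 + (q : ℚ) ^ 2 - q + 1 := by
    have : (f10 : ℚ) + ((q : ℚ) ^ 3 + q) = (q : ℚ) ^ 4 + (q : ℚ) ^ 2 + 1 := by exact_mod_cast h10
    linarith
  have p18 : 0 < f18 := by
    rcases Nat.eq_zero_or_pos f18 with h0 | h0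
    · have h1 := Nat.pow_le_pow_right (show 1 ≤ q by omega) (show 3 ≤ 6 by norm_num)
      omega
    · exact h0
  have p10 : 0 < f10 := by
    rcases Nat.eq_zero_or_pos f10 with h0 | h0
    · have h1 := Nat.pow_le_pow_right (show 1 ≤ q by omega) (show 3 ≤ 4 by norm_num)
      have h2 := Nat.pow_le_pow_right (show 1 ≤ q by omega) (show 1 ≤ 2 by norm_num)
      rw [pow_one] at h2
      omega
    · exact h0
  have d18 : 3 ∣ f18 := by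
    have h1 : q ^ 3 % 3 = 2 := by rw [Nat.pow_mod, h3]
    have h2 : q ^ 6 % 3 = 1 := by rw [Nat.pow_mod, h3]
    omega
  obtain ⟨d2, hd2⟩ : ∃ d : ℕ, 2 * d = q ^ 3 * ((q + 1) ^ 2 * (q ^ 3 + 1) ^ 2) * f10 * f18 := by
    have : 2 ∣ q ^ 3 * ((q + 1) ^ 2 * (q ^ 3 + 1) ^ 2) * f10 * f18 := by
      refine Dvd.dvd.mul_right (Dvd.dvd.mul_right ?_ _) _
      rcases Nat.even_or_odd q with h | h
      · exact Dvd.dvd.mul_right (dvd_pow h.two_dvd (by norm_num)) _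
      · exact Dvd.dvd.mul_left (Dvd.dvd.mul_right (dvd_pow (h.add_one).two_dvd (by norm_num)) _) _
    obtain ⟨d, hd⟩ := this
    exact ⟨d, hd.symm⟩
  obtain ⟨d3, hd3⟩ : ∃ d : ℕ, 2 * d = q ^ 3 * ((q ^ 2 + q + 1) ^ 2 * (q ^ 4 + 1)) * f10 * f18 := by
    have : 2 ∣ q ^ 3 * ((q ^ 2 + q + 1) ^ 2 * (q ^ 4 + 1)) * f10 * f18 := by
      refine Dvd.dvd.mul_right (Dvd.dvd.mul_right ?_ _) _
      rcases Nat.even_or_odd q with h | h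
      · exact Dvd.dvd.mul_right (dvd_pow h.two_dvd (by norm_num)) _
      · exact Dvd.dvd.mul_left (Dvd.dvd.mul_left ((h.pow (n := 4)).add_one).two_dvd _) _
    obtain ⟨d, hd⟩ := this
    exact ⟨d, hd.symm⟩
  have t2 : 3 ∣ d2 := by
    have : 3 ∣ 2 * d2 := by rw [hd2]; exact Dvd.dvd.mul_left d18 _
    exact (Nat.Coprime.dvd_mul_left (by norm_num)).1 this
  have t3 : 3 ∣ d3 := by
    have : 3 ∣ 2 * d3 := by rw [hd3]; exact Dvd.dvd.mul_left d18 _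
    exact (Nat.Coprime.dvd_mul_left (by norm_num)).1 this
  have t1 : 3 ∣ q * (q ^ 4 + 1) * f18 := Dvd.dvd.mul_left d18 _
  -- the sizes
  have l1 : q * (q ^ 4 + 1) * f18 < d2 := by
    have h1 : 2 * (q * (q ^ 4 + 1) * f18) < 2 * d2 := by
      rw [hd2]
      have h2 : 2 * (q * (q ^ 4 + 1)) < q ^ 3 * ((q + 1) ^ 2 * (q ^ 3 + 1) ^ 2) := by
        have h4 : q ^ 4 + 1 ≤ (q ^ 3 + 1) ^ 2 := by
          have := Nat.pow_le_pow_right (show 1 ≤ q by omega) (show 4 ≤ 6 by norm_num)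
          have h5 : (q ^ 3 + 1) ^ 2 = q ^ 6 + 2 * q ^ 3 + 1 := by ring
          omega
        have h5 : 4 * q ≤ q ^ 3 := by
          have : q ^ 3 = q ^ 2 * q := by ring
          rw [this]
          exact Nat.mul_le_mul_right _ (by nlinarith)
        have h6 : 1 ≤ (q + 1) ^ 2 := Nat.one_le_pow _ _ (by omega)
        calc 2 * (q * (q ^ 4 + 1)) < (4 * q) * (1 * (q ^ 4 + 1)) := by nlinarith [pow_pos (show 0 < q by omega) 4]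
          _ ≤ q ^ 3 * ((q + 1) ^ 2 * (q ^ 3 + 1) ^ 2) :=
            Nat.mul_le_mul h5 (Nat.mul_le_mul h6 h4)
      calc 2 * (q * (q ^ 4 + 1) * f18) = 2 * (q * (q ^ 4 + 1)) * 1 * f18 := by ring
        _ < q ^ 3 * ((q + 1) ^ 2 * (q ^ 3 + 1) ^ 2) * f10 * f18 :=
          Nat.mul_lt_mul_of_pos_right (Nat.mul_lt_mul_of_lt_of_le h2 p10 p10) p18
    omega
  have l2 : d2 < d3 := by
    have h1 : 2 * d2 < 2 * d3 := by
      rw [hd2, hd3]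
      refine Nat.mul_lt_mul_of_pos_right (Nat.mul_lt_mul_of_pos_right (Nat.mul_lt_mul_of_pos_left ?_
        (pow_pos (by omega) 3)) p10) p18
      obtain ⟨y, rfl⟩ := Nat.exists_eq_add_of_le hq
      have h2 : (((2 + y) ^ 2 + (2 + y) + 1) ^ 2 * ((2 + y) ^ 4 + 1)) =
          ((2 + y) + 1) ^ 2 * ((2 + y) ^ 3 + 1) ^ 2 + 2 * (2 + y) ^ 2 * (13 + 28 * y + 23 * y ^ 2 + 8 * y ^ 3 + y ^ 4) := by ring
      rw [h2]
      refine Nat.lt_add_of_pos_right (Nat.mul_pos (Nat.mul_pos (by norm_num) (pow_pos (by omega) 2)) ?_)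
      omega
    omega
  have key : ∀ d ∈ ({q * (q ^ 4 + 1) * f18, d2, d3} : Finset ℕ), 3 ∣ d ∧
      ∃ χ : Y → ℂ, Cfsg.IsIrrCharacter Y χ ∧ χ 1 = d := by
    intro d hd
    simp only [Finset.mem_insert, Finset.mem_singleton] at hd
    rcases hd with ed | ed | ed
    · rw [ed]
      refine ⟨t1, char_of R hG hq hc (a1 q) rfl (eig1 hx0) ?_ _ ?_⟩
      · apply ne_of_gt
        have h1 : (0 : ℚ) < q + (q : ℚ) ^ 3 + 2 * (q : ℚ) ^ 4 + 2 * (q : ℚ) ^ 6 + (q : ℚ) ^ 7 + (q : ℚ) ^ 9 := by positivity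
        linarith
      · rw [← deg1 hx0]
        push_cast
        rw [e18]
    · rw [ed]
      refine ⟨t2, char_of R hG hq hc (a2 q) rfl (eig2 hx0) ?_ _ ?_⟩
      · apply ne_of_gt
        have h1 : (0 : ℚ) < q + (q : ℚ) ^ 2 + (q : ℚ) ^ 3 + 2 * (q : ℚ) ^ 4 + 2 * (q : ℚ) ^ 6 + (q : ℚ) ^ 7 + (q : ℚ) ^ 8 +
          (q : ℚ) ^ 9 := by positivity
        linarith
      · have h1 : (2 : ℚ) * d2 = (q : ℚ) ^ 3 * (q + 1) ^ 4 * ((q : ℚ) ^ 2 - q + 1) ^ 2 *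
            ((q : ℚ) ^ 4 - (q : ℚ) ^ 3 + (q : ℚ) ^ 2 - q + 1) * ((q : ℚ) ^ 6 - (q : ℚ) ^ 3 + 1) := by
          rw [← e10, ← e18]
          have h2 : (2 : ℚ) * d2 = (q : ℚ) ^ 3 * ((q + 1) ^ 2 * ((q : ℚ) ^ 3 + 1) ^ 2) * f10 * f18 := by exact_mod_cast hd2
          rw [h2]
          ring
        have h2 := deg2 hx0
        rw [← h1] at h2
        linarith
    · rw [ed]
      refine ⟨t3, char_of R hG hq hc (a3 q) rfl (eig3 hx0) ?_ _ ?_⟩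
      · apply ne_of_gt
        have h1 : (0 : ℚ) < q + (q : ℚ) ^ 2 + (q : ℚ) ^ 3 + 2 * (q : ℚ) ^ 4 + 2 * (q : ℚ) ^ 5 + 2 * (q : ℚ) ^ 6 +
          (q : ℚ) ^ 7 + (q : ℚ) ^ 8 + (q : ℚ) ^ 9 := by positivity
        linarith
      · have h1 : (2 : ℚ) * d3 = (q : ℚ) ^ 3 * ((q : ℚ) ^ 2 + q + 1) ^ 2 * ((q : ℚ) ^ 4 + 1) *
            ((q : ℚ) ^ 4 - (q : ℚ) ^ 3 + (q : ℚ) ^ 2 - q + 1) * ((q : ℚ) ^ 6 - (q : ℚ) ^ 3 + 1) := by
          rw [← e10, ← e18]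
          have h2 : (2 : ℚ) * d3 = (q : ℚ) ^ 3 * (((q : ℚ) ^ 2 + q + 1) ^ 2 * ((q : ℚ) ^ 4 + 1)) * f10 * f18 := by
            exact_mod_cast hd3
          rw [h2]
          ring
        have h2 := deg3 hx0
        rw [← h1] at h2
        linarith
  have h4 := H246.Dl.Many.of_finset key
  have h5 : ({q * (q ^ 4 + 1) * f18, d2, d3} : Finset ℕ).card = 3 :=
    Finset.card_eq_three.2 ⟨_, _, _, l1.ne, (l1.trans l2).ne, l2.ne, rfl⟩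
  rwa [h5] at h4

end chars

end Cfsg.Agent.H64.Dl.Sph.TwE

namespace Cfsg.Agent.H64.Dl

open Cfsg.Lie Cfsg.Agent.H35.ExcIdx Cfsg.Agent.Nodes

universe u

theorem exists_prime_pow' (F : Type u) [Field F] [Fintype F] :
    ∃ (r f : ℕ), r.Prime ∧ f ≠ 0 ∧ Fintype.card F = r ^ f ∧ CharP F r := by
  obtain ⟨r, hr⟩ := CharP.exists F
  obtain ⟨f, hp, hf⟩ := FiniteField.card F r
  exact ⟨r, f, hp, f.ne_zero, hf, hr⟩

/-- **`²E₆(q)`, `q ≡ 2 mod 3`: three characters of degree divisible by `3`.** -/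
theorem many_TwE6_three_of_mod {K : Type u} [Field K] [Fintype K] {q : ℕ} (hq : IsPrimePow q)
    (hK : Fintype.card K = q ^ 2) {S : Type*} [Group S] (e : S ≃* ↥(twistedE6 K q)) (h3 : q % 3 = 2) :
    H246.Dl.Many 3 S 3 := by
  obtain ⟨r, f, hr, hf, hqf⟩ := (isPrimePow_nat_iff q).1 hq
  have hch : CharP K r := by
    obtain ⟨r', g, hr', hg, hK', hch⟩ := exists_prime_pow' K
    have h1 : r' = r := by
      have h2 : r' ∣ r ^ (f * 2) := by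
        rw [pow_mul, hqf, ← hK, hK']
        exact dvd_pow_self _ hg
      exact (Nat.prime_dvd_prime_iff_eq hr' hr).1 (hr'.dvd_of_dvd_pow h2)
    rwa [h1] at hch
  obtain ⟨φ, hφ, hqq⟩ := Cfsg.Agent.ChevalleyStructure.TwE6Basic.exists_frob hq hK
  have : Finite ↥(twistedE6 K q) := by
    have : Finite (GL chevE6.Idx K) := by
      have : Finite (Matrix chevE6.Idx chevE6.Idx K) := inferInstance
      infer_instance
    infer_instance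
  have D := data_TwE6_2 hr hf.ne' hqf.symm hφ hqq hK
  have := D.fin
  refine H246.Dl.Many.of_equiv e (Sph.TwE.three_chars D.rgd D.gg hq.two_le (fun i => ?_) h3)
  rw [D.size i]
  fin_cases i
  · exact (pow_one q).symm
  · exact (pow_one q).symm
  · rfl
  · rfl

end Cfsg.Agent.H64.Dl
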