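import Cfsg.Agent.H64.Dl.Seven
import Cfsg.Agent.H64.Dl.ExcK
import Cfsg.Agent.H64.Dl.TwE3

/-!
# Three inequivalent characters for `E₇(q)`, `E₈(q)`, `²E₆(q)` (helper64, task DL-EXC-3 of S4769)

* `many_E7_cross`, `many_E8_cross` : `Many p S 3` for every prime `p ∣ |S|` other than the characteristic;
* `many_TwE6_three` : `Many 3 S 3` for `²E₆(q)`, `3 ∤ q`.
-/

set_option autoImplicit false

namespace Cfsg.Agent.H64.Dl

open Cfsg.Agent.H53.HC Cfsg.Agent.H53.HC.ExcRows Cfsg.Agent.H53.HC.ExcIM Cfsg.Agent.H35.ExcIdx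
  Cfsg.Agent.H246.Dl Cfsg.Agent.H717.Two Cfsg.Lie Cfsg.Agent.Nodes.RGDChev

universe u

section split

variable {K : Type u} [Field K] [Fintype K] {S : Type*} [Group S] {p : ℕ} (hp : p.Prime)
  (hpK : ¬ p ∣ Fintype.card K)

include hp hpK

/-- **`E₈(q)`, `p ∤ q`.** -/
theorem many_E8_cross (e : S ≃* ↥(chevE8.group K)) (hpS : p ∣ Nat.card S) : Many p S 3 := by
  obtain ⟨r, f, hr, hf, hF, hch⟩ := exists_prime_pow' K
  have := finite_group (K := K) chevE8
  have D := data_E8_3 hr hf hF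
  have := D.fin
  have hpr : p ≠ r := by
    rintro rfl
    apply hpK
    rw [hF]
    exact dvd_pow_self _ hf
  refine Many.of_equiv e (many_three hr (two_le hr hf) (dvd_pow_self r hf) (j := 3) (j₀ := 1) (i₀ := 3)
    (k₀ := 2) (k₁ := 0) (N := {4, 5, 6, 7}) D compl8' (fun hc => (not8 1 hc).2 rfl)
    (fun i hi i' hi' => orN8 i (by simpa using hi) i' (by simpa using hi'))
    (fun i hi => or8 i (not8 i hi).1 (not8 i hi).2) (by decide +kernel) rfl comb8 (by decide +kernel)
    (by decide +kernel) (by decide +kernel) un8 (in_A2 D (by decide +kernel) rfl)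
    (by rw [← range_k8]; exact in_chain D (by norm_num) k8 hk8) (in_node D 1 3 (by decide +kernel)) hp ?_ hpr)
  rwa [← Nat.card_congr e.toEquiv]

/-- **`E₇(q)`, `p ∤ q`.** -/
theorem many_E7_cross (e : S ≃* ↥(chevE7.group K)) (hpS : p ∣ Nat.card S) : Many p S 3 := by
  obtain ⟨r, f, hr, hf, hF, hch⟩ := exists_prime_pow' K
  have := finite_group (K := K) chevE7
  have D := data_E7_3 hr hf hF
  have := D.fin
  have hpr : p ≠ r := by
    rintro rfl
    apply hpK
    rw [hF]
    exact dvd_pow_self _ hf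
  refine Many.of_equiv e (many_three hr (two_le hr hf) (dvd_pow_self r hf) (j := 3) (j₀ := 1) (i₀ := 3)
    (k₀ := 2) (k₁ := 0) (N := {4, 5, 6}) D compl7' (fun hc => (not7 1 hc).2 rfl)
    (fun i hi i' hi' => orN7 i (by simpa using hi) i' (by simpa using hi'))
    (fun i hi => or7 i (not7 i hi).1 (not7 i hi).2) (by decide +kernel) rfl comb7 (by decide +kernel)
    (by decide +kernel) (by decide +kernel) un7 (in_A2 D (by decide +kernel) rfl)
    (by rw [← range_k7]; exact in_chain D (by norm_num) k7 hk7) (in_node D 1 3 (by decide +kernel)) hp ?_ hpr)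
  rwa [← Nat.card_congr e.toEquiv]

end split

/-- **`²E₆(q)`, `p = 3 ∤ q`.** -/
theorem many_TwE6_three {K : Type u} [Field K] [Fintype K] {q : ℕ} (hq : IsPrimePow q) (hK : Fintype.card K = q ^ 2)
    {S : Type*} [Group S] (h3 : ¬ 3 ∣ q) (e : S ≃* ↥(twistedE6 K q)) : Many 3 S 3 := by
  by_cases h1 : q % 3 = 2
  · exact many_TwE6_three_of_mod hq hK e h1
  · have h2 : 3 ∣ q - 1 := by omega
    exact (many_TwE6 hq hK Nat.prime_three h2 e).mono (by norm_num)

end Cfsg.Agent.H64.Dl
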