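import Cfsg.Agent.H717.Two.SevenEight
import Cfsg.Agent.H246.Dl.KTypeMJ
import Cfsg.Agent.KFacts.RgdDiag

/-!
# Three inequivalent characters of degree divisible by `p` for `E₇(q)` and `E₈(q)`, first part (helper64)

* `exists_irr_partial'` : `H717.Two.exists_irr_partial` with the character of `P_J`;
* `hasFix_partial` : `J = K ∪ K'`, `ψ = φ ⊗ ρ`, `ρ` with `U_{K'}`-fixed vectors: `χ` has `V_K`-fixed vectors;
* `st_node'` : the Steinberg character of a node has `U`-fixed vectors.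
-/

set_option autoImplicit false
set_option linter.unusedSectionVars false

open scoped ComplexConjugate Pointwise
open Cfsg

namespace Cfsg.Agent.H64.Dl

open Cfsg.Agent.OddOrderCharacters.Clifford Cfsg.Agent.Characters Cfsg.Agent.H53.HC Cfsg.Agent.H717.Two
  Cfsg.Agent.H246.Dl
open CoxeterSystem Cfsg.Agent.ChevalleyStructure.CoxeterGeom Cfsg.Agent.Tits.Roots Cfsg.Agent.Tits.Core
  Cfsg.Agent.Tits.Exchange Cfsg.Agent.Nodes.Reps Cfsg.Agent.Nodes.BNOf Cfsg.Agent.Nodes.StabComb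
  Cfsg.Agent.Nodes.Bruhat Cfsg.Agent.Nodes.OppDec Cfsg.Agent.Nodes.LeviDec

variable {I W Y : Type*} [Fintype I] [DecidableEq I] [Group W] [Group Y] {M : CoxeterMatrix I}
  {cs : CoxeterSystem M W} {A : I → I → ℤ} {h : IsCartan M A} {p : ℕ} {T : Subgroup Y} {n : I → Y}
  {X : (I → ℤ) → Subgroup Y}

variable (R : RGD cs h p T n X)

include R

/-- **Irreducible characters of a group with a root group datum from the partially cuspidal characters of `M_J`.** -/
theorem exists_irr_partial' [Finite W] [Fintype Y] (hG : GG cs h T X = ⊤) {J K : Set I} (hKJ : K ⊆ J)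
    (hC : Comb cs h J K) {θ : ↥(MJ cs h X J) → ℂ} (hθ : IsIrrCharacter _ θ)
    (hc : ∀ i ∈ K, ∀ [Fintype (rad cs h X J i)], ∑ u : rad cs h X J i, θ ⟨u, rad_le_MJ J i u.2⟩ = 0)
    (hs : ∀ w g (hg : Rp cs R.nsys w g), w ∉ WJ cs J → ∀ hw : Perm cs h J w,
      ∃ (m : Y) (hm : m ∈ MJ cs h X J), θ ⟨g⁻¹ * m * g, conj_mem_MJ R hg hw hm⟩ ≠ θ ⟨m, hm⟩) :
    ∃ χ : Y → ℂ, IsIrrCharacter Y χ ∧ (∃ k : ℕ, 0 < k ∧ k ∣ Nat.card T ∧
      χ 1 = (PJ cs h T X J).index * (k * θ 1)) ∧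
      ∃ ψ' : ↥(PJ cs h T X J) → ℂ, IsIrrCharacter _ ψ' ∧ χ = indFun (PJ cs h T X J) ψ' ∧
        (∀ (v : Y) (hv : v ∈ VJ cs h X J), ψ' ⟨v, VJ_le_PJ hv⟩ = ψ' 1) ∧
        ∃ (c : ℂ) (s : Finset (↥(MJ cs h X J) → ℂ)),
          (∀ (m : Y) (hm : m ∈ MJ cs h X J), ψ' ⟨m, LJ_le_PJ (MJ_le_LJ J hm)⟩ = c * ∑ φ ∈ s, φ ⟨m, hm⟩) ∧
          ∀ φ ∈ s, ∃ t, ∃ ht : t ∈ T, φ = θ ∘ conjME (MJ cs h X J) (T_le_normalizer_MJ R J ht) := by
  classical
  obtain ⟨ψ, hψ, ⟨k, hk, hkd, hk1⟩, c, s, hc0, hθs, hres, hsφ⟩ := exists_over' (MJ_le_LJ (T := T) J)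
    (LJ_le_normalizer_MJ R J) hθ
  obtain ⟨ψ', hψ', hψL, hψV⟩ := exists_infl R J hψ
  have hres' : ∀ (m : Y) (hm : m ∈ MJ cs h X J), ψ' ⟨m, LJ_le_PJ (MJ_le_LJ J hm)⟩ = c * ∑ φ ∈ s, φ ⟨m, hm⟩ := by
    intro m hm
    rw [hψL]
    exact hres ⟨m, hm⟩
  -- the conjugates are conjugates under the torus
  have hsT : ∀ φ ∈ s, ∃ t, ∃ ht : t ∈ T, φ = θ ∘ conjME (MJ cs h X J) (T_le_normalizer_MJ R J ht) := by
    intro φ hφ
    obtain ⟨g, hg, hgφ⟩ := hsφ φ hφ
    obtain ⟨m, hm, t, ht, rfl⟩ := (mem_LJ_iff_mul' R J).1 hg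
    refine ⟨t, ht, ?_⟩
    funext x
    obtain ⟨hx', e⟩ := hgφ x x.2
    rw [e, Function.comp_apply]
    have h1 := Core.isIrr_isClassFunction hθ (conjME (MJ cs h X J) (T_le_normalizer_MJ R J ht) x) ⟨m, hm⟩
    rw [← h1]
    congr 1
    apply Subtype.ext
    simp only [conjME_coe, Subgroup.coe_mul, InvMemClass.coe_inv]
    group
  refine ⟨indFun (PJ cs h T X J) ψ', ?_, ⟨k, hk, hkd.trans (relIndex_sup_dvd (T_le_normalizer_MJ R J)), ?_⟩,
    ψ', hψ', rfl, hψV, c, s, hres', hsT⟩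
  · refine isIrr_indFun_partial R hG hKJ hC hψ' hψV ?_ ?_
    · intro i hi hf
      have h1 : ∀ u : rad cs h X J i, ψ' ⟨u, rad_le_PJ J i u.2⟩ = c * ∑ φ ∈ s, φ ⟨u, rad_le_MJ J i u.2⟩ :=
        fun u => hres' u (rad_le_MJ J i u.2)
      rw [Finset.sum_congr rfl fun u _ => h1 u, ← Finset.mul_sum, Finset.sum_comm]
      rw [Finset.sum_eq_zero, mul_zero]
      intro φ hφ
      obtain ⟨t, ht, rfl⟩ := hsT φ hφ
      rw [← hc i hi]
      exact Fintype.sum_equiv (conjME (rad cs h X J i) (T_le_normalizer_rad R J i ht)).toEquiv _ _ fun u => rfl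
    · intro w g hg hw hp
      have hgn := inv_mem (rp_mem_normalizer_MJ R hg hp)
      refine ⟨MJ cs h X J, le_trans (MJ_le_LJ J) LJ_le_PJ,
        fun l hl => LJ_le_PJ (MJ_le_LJ J (conj_mem_MJ R hg hp hl)), ?_⟩
      intro hf
      have h1 : ∀ l : MJ cs h X J, ψ' ⟨l, LJ_le_PJ (MJ_le_LJ J l.2)⟩ *
          conj (ψ' ⟨g⁻¹ * l * g, LJ_le_PJ (MJ_le_LJ J (conj_mem_MJ R hg hp l.2))⟩) =
          ∑ φ ∈ s, ∑ φ' ∈ s, (c * conj c) * (φ l * conj ((φ' ∘ conjME (MJ cs h X J) hgn) l)) := by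
        intro l
        have e2 : (⟨g⁻¹ * l * g, conj_mem_MJ R hg hp l.2⟩ : MJ cs h X J) = conjME (MJ cs h X J) hgn l := by
          apply Subtype.ext
          rw [conjME_coe, inv_inv]
        rw [hres' l l.2, hres' _ (conj_mem_MJ R hg hp l.2), e2, map_mul, map_sum]
        simp only [← Finset.mul_sum, Function.comp_apply]
        rw [← Finset.sum_mul]
        ring
      rw [Finset.sum_congr rfl fun l _ => h1 l, Finset.sum_comm]
      refine Finset.sum_eq_zero fun φ hφ => ?_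
      rw [Finset.sum_comm]
      refine Finset.sum_eq_zero fun φ' hφ' => ?_
      rw [← Finset.mul_sum]
      obtain ⟨t, ht, rfl⟩ := hsT φ hφ
      obtain ⟨t', ht', rfl⟩ := hsT φ' hφ'
      have hne : θ ∘ conjME (MJ cs h X J) (T_le_normalizer_MJ R J ht) ≠
          (θ ∘ conjME (MJ cs h X J) (T_le_normalizer_MJ R J ht')) ∘ conjME (MJ cs h X J) hgn := by
        intro he
        have hg' : Rp cs R.nsys w (t * g * t'⁻¹) := by
          have h2 := ((rp_of_mem (cs := cs) (hN := R.nsys) ht).mul hg).mul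
            (rp_of_mem (cs := cs) (hN := R.nsys) (inv_mem ht'))
          rwa [one_mul, mul_one] at h2
        obtain ⟨m, hm, hne⟩ := hs w _ hg' hw hp
        apply hne
        have h3 := congrFun he (conjME (MJ cs h X J) (inv_mem (T_le_normalizer_MJ R J ht)) ⟨m, hm⟩)
        simp only [Function.comp_apply] at h3
        refine Eq.trans ?_ (h3.symm.trans ?_)
        · congr 1
          apply Subtype.ext
          simp only [conjME_coe]
          group
        · congr 1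
          apply Subtype.ext
          simp only [conjME_coe]
          group
      have hi1 : IsIrrCharacter _ (θ ∘ conjME (MJ cs h X J) (T_le_normalizer_MJ R J ht)) :=
        Core.isIrr_comp (conjME _ (T_le_normalizer_MJ R J ht)).toMonoidHom (MulEquiv.surjective _) hθ
      have hi2 : IsIrrCharacter _ (θ ∘ conjME (MJ cs h X J) (T_le_normalizer_MJ R J ht')) :=
        Core.isIrr_comp (conjME _ (T_le_normalizer_MJ R J ht')).toMonoidHom (MulEquiv.surjective _) hθ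
      have hi3 : IsIrrCharacter _ ((θ ∘ conjME (MJ cs h X J) (T_le_normalizer_MJ R J ht')) ∘
          conjME (MJ cs h X J) hgn) :=
        Core.isIrr_comp (conjME _ hgn).toMonoidHom (MulEquiv.surjective _) hi2
      have h4 := Core.classInner_irr_ne hi1 hi3 hne
      rw [Core.classInner_def, mul_eq_zero] at h4
      rcases h4 with h4 | h4
      · exact absurd (inv_eq_zero.1 h4) Core.card_ne_zero_complex
      · rw [mul_eq_zero]
        exact Or.inr h4
  · rw [indFun_one]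
    congr 1
    rw [← hk1]
    exact hψL 1 (one_mem _)

/-- the sum over `V_K = U_{K'} V_J` -/
theorem sum_VK [Finite W] [Finite Y] {K K' : Set I} (ho : Orth A K K') {ψ : ↥(PJ cs h T X (K ∪ K')) → ℂ}
    (hψ : IsIrrCharacter _ ψ) (hV : ∀ (v : Y) (hv : v ∈ VJ cs h X (K ∪ K')), ψ ⟨v, VJ_le_PJ hv⟩ = ψ 1)
    [Fintype (VJ cs h X K)] [Fintype (UJ cs h X K')] [Fintype (VJ cs h X (K ∪ K'))] :
    ∑ v : VJ cs h X K, ψ ⟨v, le_trans (VJ_le_B K) B_le_PJ v.2⟩ =
      Nat.card (VJ cs h X (K ∪ K')) * ∑ b : UJ cs h X K', ψ ⟨b, B_le_PJ (RGD.U_le_B (UJ_le_U K' b.2))⟩ := by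
  classical
  have hUV : UJ cs h X K' ≤ VJ cs h X K := UJ_le_VJ_of_orth ho
  have hVV : VJ cs h X (K ∪ K') ≤ VJ cs h X K := VJ_anti Set.subset_union_left
  have hb : Function.Bijective (fun x : UJ cs h X K' × VJ cs h X (K ∪ K') =>
      (⟨x.1 * x.2, mul_mem (hUV x.1.2) (hVV x.2.2)⟩ : VJ cs h X K)) := by
    constructor
    · rintro ⟨a, c⟩ ⟨a', c'⟩ e
      have e1 : (a : Y) * c = a' * c' := congrArg Subtype.val e
      have e2 : (a' : Y)⁻¹ * a = c' * (c : Y)⁻¹ := by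
        rw [inv_mul_eq_iff_eq_mul, ← mul_assoc, ← e1, mul_inv_cancel_right]
      have e3 : (a' : Y)⁻¹ * a = 1 := by
        refine eq_one_of_mem_LJ_of_mem_VJ R (T := T) (J := K ∪ K') ?_ (by rw [e2]; exact mul_mem c'.2 (inv_mem c.2))
        refine LJ_mono Set.subset_union_right (BJ_le_LJ (UJ_le_BJ (J := K') ?_))
        exact mul_mem (inv_mem a'.2) a.2
      have e4 : (a : Y) = a' := (inv_mul_eq_one.1 e3).symm
      have e5 : (c : Y) = c' := by
        rw [e3] at e2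
        exact (mul_inv_eq_one.1 e2.symm).symm
      rw [Prod.mk.injEq]
      exact ⟨Subtype.ext e4, Subtype.ext e5⟩
    · rintro ⟨g, hg⟩
      obtain ⟨b, hb, v, hv, rfl⟩ := mem_VJ_of_orth R ho hg
      exact ⟨(⟨b, hb⟩, ⟨v, hv⟩), rfl⟩
  rw [← Fintype.sum_bijective _ hb (fun x => ψ ⟨x.1 * x.2, mul_mem (B_le_PJ (RGD.U_le_B (UJ_le_U K' x.1.2)))
    (VJ_le_PJ x.2.2)⟩) _ (fun x => rfl), Fintype.sum_prod_type]
  rw [Finset.mul_sum]
  refine Finset.sum_congr rfl fun b _ => ?_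
  have h1 : ∀ v : VJ cs h X (K ∪ K'), ψ ⟨b * v, mul_mem (B_le_PJ (RGD.U_le_B (UJ_le_U K' b.2))) (VJ_le_PJ v.2)⟩ =
      ψ ⟨b, B_le_PJ (RGD.U_le_B (UJ_le_U K' b.2))⟩ := fun v =>
    H686.CharKit.apply_mul_of_eq' (Core.isIrr_isCharacter hψ) (hV v v.2)
      (⟨b, B_le_PJ (RGD.U_le_B (UJ_le_U K' b.2))⟩ : PJ cs h T X (K ∪ K'))
  rw [Finset.sum_congr rfl fun v _ => h1 v, Finset.sum_const, nsmul_eq_mul, Finset.card_univ, Nat.card_eq_fintype_card]

/-- **Fixed vectors of `V_K`.** -/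
theorem hasFix_partial [Finite W] [Fintype Y] {K K' : Set I} (ho : Orth A K K')
    {φ : ↥(MJ cs h X K) → ℂ} (hφ : IsIrrCharacter _ φ) {ρ : ↥(MJ cs h X K') → ℂ}
    (hρ : ∀ [Fintype (UJ cs h X K')], ∑ u : UJ cs h X K', ρ ⟨u, (RGD.Sup_mono fun _ hx => PosJ_subset K' hx :
      UJ cs h X K' ≤ MJ cs h X K') u.2⟩ ≠ 0)
    {θ : ↥(MJ cs h X (K ∪ K')) → ℂ}
    (hval : ∀ (a : Y) (ha : a ∈ MJ cs h X K) (b : Y) (hb : b ∈ MJ cs h X K'),
        ∃ hab : a * b ∈ MJ cs h X (K ∪ K'), θ ⟨a * b, hab⟩ = φ ⟨a, ha⟩ * ρ ⟨b, hb⟩)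
    {χ : Y → ℂ} (hχ : IsIrrCharacter Y χ) {ψ : ↥(PJ cs h T X (K ∪ K')) → ℂ}
    (hψ : IsIrrCharacter _ ψ) (he : χ = indFun (PJ cs h T X (K ∪ K')) ψ)
    (hV : ∀ (v : Y) (hv : v ∈ VJ cs h X (K ∪ K')), ψ ⟨v, VJ_le_PJ hv⟩ = ψ 1) {c : ℂ}
    {s : Finset (↥(MJ cs h X (K ∪ K')) → ℂ)}
    (hres : ∀ (m : Y) (hm : m ∈ MJ cs h X (K ∪ K')), ψ ⟨m, LJ_le_PJ (MJ_le_LJ (K ∪ K') hm)⟩ = c * ∑ φ ∈ s, φ ⟨m, hm⟩)
    (hs : ∀ φ ∈ s, ∃ t, ∃ ht : t ∈ T, φ = θ ∘ conjME (MJ cs h X (K ∪ K')) (T_le_normalizer_MJ R (K ∪ K') ht)) :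
    HasFix χ (VJ cs h X K) := by
  classical
  have : Fintype (PJ cs h T X (K ∪ K')) := Fintype.ofFinite _
  have : Fintype (VJ cs h X K) := Fintype.ofFinite _
  have : Fintype (VJ cs h X (K ∪ K')) := Fintype.ofFinite _
  have : Fintype (UJ cs h X K') := Fintype.ofFinite _
  refine hasFix_of_constituent (P := PJ cs h T X (K ∪ K')) (le_trans (VJ_le_B K) B_le_PJ)
    (Core.isIrr_isCharacter hχ) hψ ?_ ?_
  · rw [← classInner_indFun (PJ cs h T X (K ∪ K')) ψ _ (Core.isIrr_isClassFunction hχ), ← he, Core.classInner_irr_self hχ]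
    exact one_ne_zero
  · rw [sum_VK R ho hψ hV]
    refine mul_ne_zero Core.card_ne_zero_complex ?_
    have hUM' : UJ cs h X K' ≤ MJ cs h X K' := RGD.Sup_mono fun _ hx => PosJ_subset K' hx
    have hUM : UJ cs h X K' ≤ MJ cs h X (K ∪ K') :=
      le_trans hUM' (by rw [ho.MJ_union]; exact le_sup_right)
    have hT : T ≤ Subgroup.normalizer (UJ cs h X K' : Set Y) := R.T_le_normalizer fun _ hx => hx.1
    have h1 : ∀ b : UJ cs h X K', ψ ⟨b, B_le_PJ (RGD.U_le_B (UJ_le_U K' b.2))⟩ = c * ∑ φ ∈ s, φ ⟨b, hUM b.2⟩ :=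
      fun b => hres b (hUM b.2)
    have h2 : ∀ φ' ∈ s, ∑ b : UJ cs h X K', φ' ⟨b, hUM b.2⟩ = φ 1 * ∑ u : UJ cs h X K', ρ ⟨u, hUM' u.2⟩ := by
      intro φ' hφ'
      obtain ⟨t, ht, rfl⟩ := hs φ' hφ'
      rw [Finset.mul_sum]
      refine Fintype.sum_equiv (conjME (UJ cs h X K') (hT ht)).toEquiv _ _ fun u => ?_
      obtain ⟨hab, e⟩ := hval 1 (one_mem _) _ (hUM' (conjME (UJ cs h X K') (hT ht) u).2)
      simp only [one_mul] at e
      exact e
    have h3 : ∀ φ' ∈ s, φ' ⟨1, one_mem _⟩ = φ 1 * ρ 1 := by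
      intro φ' hφ'
      obtain ⟨t, ht, rfl⟩ := hs φ' hφ'
      obtain ⟨hab, e⟩ := hval 1 (one_mem _) 1 (one_mem _)
      simp only [mul_one] at e
      change θ (conjME (MJ cs h X (K ∪ K')) (T_le_normalizer_MJ R (K ∪ K') ht) 1) = _
      rw [map_one]
      exact e
    have hcs : c * (s.card : ℂ) ≠ 0 := by
      intro h0
      have h4 := hres 1 (one_mem _)
      have h5 : ∑ φ' ∈ s, φ' ⟨1, one_mem _⟩ = s.card * (φ 1 * ρ 1) := by
        rw [Finset.sum_congr rfl fun φ' hφ' => h3 φ' hφ', Finset.sum_const, nsmul_eq_mul]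
      rw [h5, ← mul_assoc, h0, zero_mul] at h4
      exact Core.isIrr_apply_one_ne_zero hψ h4
    rw [Finset.sum_congr rfl fun b _ => h1 b, ← Finset.mul_sum, Finset.sum_comm,
      Finset.sum_congr rfl fun φ' hφ' => h2 φ' hφ', Finset.sum_const, nsmul_eq_mul, ← mul_assoc]
    exact mul_ne_zero hcs (mul_ne_zero (Core.isIrr_apply_one_ne_zero hφ) hρ)

omit R in
/-- Fixed points of the transvections: the sum of the Steinberg character over the transvections. -/
theorem sum_transvection_ne_zero (F : Type) [Field F] [Fintype F] {η : Matrix.SpecialLinearGroup (Fin 2) F → ℂ}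
    (hη : ∀ g, η g = (Nat.card (MulAction.fixedBy (Projectivization F (Fin 2 → F)) g) : ℂ) - 1) (h01 : (0 : Fin 2) ≠ 1)
    (h1 : η 1 = Nat.card F) :
    ∑ t : F, η (Matrix.SpecialLinearGroup.transvection h01 t) ≠ 0 := by
  classical
  have hfin' : Finite (Projectivization F (Fin 2 → F)) := by
    unfold Projectivization
    infer_instance
  have hpos : ∀ t : F, 1 ≤ Nat.card (MulAction.fixedBy (Projectivization F (Fin 2 → F))
      (Matrix.SpecialLinearGroup.transvection h01 t)) := by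
    intro t
    have hv : (Pi.single 0 1 : Fin 2 → F) ≠ 0 := by
      intro h0
      have := congrFun h0 0
      simp at this
    have : Nonempty (MulAction.fixedBy (Projectivization F (Fin 2 → F))
        (Matrix.SpecialLinearGroup.transvection h01 t)) := by
      refine ⟨⟨Projectivization.mk F (Pi.single 0 1) hv, ?_⟩⟩
      rw [MulAction.mem_fixedBy, Projectivization.smul_mk]
      congr 1
      exact Matrix.SpecialLinearGroup.transvection_smul_single_fst h01 t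
    exact Nat.card_pos
  have e : ∑ t : F, η (Matrix.SpecialLinearGroup.transvection h01 t) =
      ((∑ t : F, (Nat.card (MulAction.fixedBy (Projectivization F (Fin 2 → F))
        (Matrix.SpecialLinearGroup.transvection h01 t)) - 1) : ℕ) : ℂ) := by
    rw [Nat.cast_sum]
    refine Finset.sum_congr rfl fun t _ => ?_
    rw [hη, Nat.cast_sub (hpos t), Nat.cast_one]
  rw [e]
  have h2 : Nat.card (MulAction.fixedBy (Projectivization F (Fin 2 → F))
      (Matrix.SpecialLinearGroup.transvection h01 (0 : F))) - 1 = Nat.card F := by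
    have h3 := hη 1
    rw [h1] at h3
    rw [Matrix.SpecialLinearGroup.transvection_coeff_zero]
    have h4 : ((Nat.card F + 1 : ℕ) : ℂ) =
        (Nat.card (MulAction.fixedBy (Projectivization F (Fin 2 → F)) (1 : Matrix.SpecialLinearGroup (Fin 2) F)) : ℂ) := by
      push_cast
      rw [h3]
      ring
    have h5 := Nat.cast_injective h4
    omega
  have h3 : Nat.card F ≤ ∑ t : F, (Nat.card (MulAction.fixedBy (Projectivization F (Fin 2 → F))
        (Matrix.SpecialLinearGroup.transvection h01 t)) - 1) := by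
    rw [← h2]
    exact Finset.single_le_sum (f := fun t : F => Nat.card (MulAction.fixedBy (Projectivization F (Fin 2 → F))
        (Matrix.SpecialLinearGroup.transvection h01 t)) - 1) (fun _ _ => Nat.zero_le _) (Finset.mem_univ 0)
  have h4 : 0 < Nat.card F := Nat.card_pos
  exact_mod_cast (lt_of_lt_of_le h4 h3).ne'

omit R in
/-- the Steinberg character of `SL₂(q)` -/
theorem exists_st' (F : Type) [Field F] [Fintype F] : ∃ η : Matrix.SpecialLinearGroup (Fin 2) F → ℂ,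
    IsIrrCharacter _ η ∧ (∀ z ∈ Subgroup.center (Matrix.SpecialLinearGroup (Fin 2) F), η z = η 1) ∧
      η 1 = Nat.card F ∧ ∀ h01 : (0 : Fin 2) ≠ 1, ∑ t : F, η (Matrix.SpecialLinearGroup.transvection h01 t) ≠ 0 := by
  classical
  have hfin' : Finite (Projectivization F (Fin 2 → F)) := by
    unfold Projectivization
    infer_instance
  have h : MulAction.IsMultiplyPretransitive (Matrix.SpecialLinearGroup (Fin 2) F)
    (Projectivization F (Fin 2 → F)) 2 := inferInstance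
  have hc : Nat.card (Projectivization F (Fin 2 → F)) = Nat.card F + 1 := by
    rw [Projectivization.card_of_finrank F (Fin 2 → F) (n := 2) (by simp), Finset.sum_range_succ, Finset.sum_range_one,
      pow_zero, pow_one, add_comm]
  have hF : 0 < Nat.card F := Nat.card_pos
  obtain ⟨θ, hθ⟩ := H419.TwoTrans.exists_irr (G := Matrix.SpecialLinearGroup (Fin 2) F)
    (Projectivization F (Fin 2 → F)) h (by omega)
  have h1 : (θ : Matrix.SpecialLinearGroup (Fin 2) F → ℂ) 1 = Nat.card F := by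
    rw [hθ, MulAction.fixedBy_one_eq_univ, Nat.card_univ, hc]
    push_cast
    ring
  refine ⟨θ, θ.2, fun z hz => ?_, h1, fun h01 => sum_transvection_ne_zero F hθ h01 h1⟩
  have h2 : MulAction.fixedBy (Projectivization F (Fin 2 → F)) z = Set.univ := by
    rw [Set.eq_univ_iff_forall]
    intro x
    rw [MulAction.mem_fixedBy]
    have e1 : (QuotientGroup.mk z : Matrix.ProjectiveSpecialLinearGroup (Fin 2) F) • x = z • x := rfl
    have e2 : (QuotientGroup.mk z : Matrix.ProjectiveSpecialLinearGroup (Fin 2) F) = 1 :=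
      (QuotientGroup.eq_one_iff z).2 hz
    rw [← e1, e2, one_smul]
  rw [hθ, h2, h1, Nat.card_univ, hc]
  push_cast
  ring

open Cfsg.Agent.H622.Levi (exists_co_one Co Co.card Co.range mem_center_of_ker cr_succ) in
/-- **The Steinberg character of the rank one group of a node has `U`-fixed vectors.** -/
theorem st_node' [Finite W] [Finite Y] (i j : I) (hij : M i j = 3) {q : ℕ}
    (hq : Nat.card (X (sr i)) = q) :
    ∃ ρ : ↥(MJ cs h X {i}) → ℂ, IsIrrCharacter _ ρ ∧ (∀ z ∈ Subgroup.center ↥(MJ cs h X {i}), ρ z = ρ 1) ∧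
      ρ 1 = q ∧ ∀ [Fintype (UJ cs h X {i})], ∑ u : UJ cs h X {i}, ρ ⟨u, (RGD.Sup_mono fun _ hx =>
        PosJ_subset {i} hx : UJ cs h X {i} ≤ MJ cs h X {i}) u.2⟩ ≠ 0 := by
  classical
  obtain ⟨F, _, _, φ, C⟩ := exists_co_one R i j hij
  obtain ⟨η, hη, hz, hη1, hsum⟩ := exists_st' F
  let k : Fin 1 ↪ I := ⟨fun _ => i, fun a b _ => Subsingleton.elim a b⟩
  have hk : Set.range k = {i} := by
    ext x
    constructor
    · rintro ⟨_, rfl⟩; rfl
    · rintro rfl; exact ⟨0, rfl⟩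
  have hcard := C.card 0
  change Nat.card (X (sr i)) = _ at hcard
  have hran : φ.range = MJ cs h X {i} := by
    rw [← hk]
    exact Co.range (k := k) C (by
      intro a b
      rw [Subsingleton.elim a b, M.diagonal, CoxeterMatrix.diagonal]) one_pos
  let f : Matrix.SpecialLinearGroup (Fin 2) F →* ↥(MJ cs h X {i}) :=
    φ.codRestrict _ fun g => hran ▸ ⟨g, rfl⟩
  have hf : Function.Surjective f := by
    rintro ⟨y, hy⟩
    rw [← hran] at hy
    obtain ⟨g, rfl⟩ := hy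
    exact ⟨g, rfl⟩
  have hfv : ∀ g, (f g : Y) = φ g := fun g => rfl
  obtain ⟨θ, hθ, hv⟩ := OddOrderCharacters.PF9.Reducible.exists_of_surjective f hf hη (by
    intro g hg
    refine hz g (C.ker ?_)
    rw [MonoidHom.mem_ker, ← hfv, hg]
    rfl)
  have h1 : θ 1 = η 1 := by rw [← hv, map_one]
  refine ⟨θ, hθ, ?_, ?_, ?_⟩
  · intro z hz'
    obtain ⟨g, rfl⟩ := hf z
    rw [hv, h1]
    refine hz g (mem_center_of_ker (m := 1) one_pos C.ker fun s => ?_)
    rw [Subgroup.mem_center_iff] at hz'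
    exact (congrArg Subtype.val (hz' (f s))).symm
  · rw [h1, hη1, ← hcard, hq]
  · intro hfu
    have h01 : (0 : Fin 2) ≠ 1 := zero_ne_one
    have hUJ : UJ cs h X {i} = X (sr i) := KFacts.RgdDiag.UJ_singleton i
    have hroot := C.root 0 1 h01
    have hcr := cr_succ (fun _ : Fin 1 => i) 0
    change H622.Levi.cr _ 0 1 = sr i at hcr
    rw [hcr, ← hUJ] at hroot
    let g : F → UJ cs h X {i} := fun t => ⟨φ (Matrix.SpecialLinearGroup.transvection h01 t), by
      have : φ (Matrix.SpecialLinearGroup.transvection h01 t) ∈ (UJ cs h X {i} : Set Y) := by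
        rw [hroot]; exact ⟨t, rfl⟩
      exact this⟩
    have hgs : Function.Surjective g := by
      rintro ⟨y, hy⟩
      have : y ∈ (UJ cs h X {i} : Set Y) := hy
      rw [hroot] at this
      obtain ⟨t, rfl⟩ := this
      exact ⟨t, rfl⟩
    have hgb : Function.Bijective g := by
      rw [Fintype.bijective_iff_surjective_and_card]
      refine ⟨hgs, ?_⟩
      rw [← Nat.card_eq_fintype_card, ← Nat.card_eq_fintype_card, hUJ, hcard]
    have e : ∑ u : UJ cs h X {i}, θ ⟨u, (RGD.Sup_mono fun _ hx =>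
        PosJ_subset {i} hx : UJ cs h X {i} ≤ MJ cs h X {i}) u.2⟩ =
        ∑ t : F, η (Matrix.SpecialLinearGroup.transvection h01 t) := by
      symm
      refine Fintype.sum_bijective g hgb _ _ fun t => ?_
      rw [← hv]
      rfl
    rw [e]
    exact hsum h01

end Cfsg.Agent.H64.Dl
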