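import Cfsg.Agent.H64.Dl.Part

/-!
# Three inequivalent characters of degree divisible by `p` for `E₇(q)` and `E₈(q)` (helper64)

* `many_E7_three_cross`, `many_E8_three_cross` : three irreducible characters of degree divisible by `p`, pairwise not
  conjugate under the automorphisms, for every prime `p ≠ r` dividing the order: the two characters
  `θ ⊗ 1`, `θ ⊗ St` of helper717 and helper53's big character of type `J`.
-/

set_option autoImplicit false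
set_option linter.unusedSectionVars false

open scoped ComplexConjugate
open Cfsg

namespace Cfsg.Agent.H64.Dl

open Cfsg.Agent.OddOrderCharacters.Clifford Cfsg.Agent.Characters Cfsg.Agent.H53.HC Cfsg.Agent.H717.Two
  Cfsg.Agent.H246.Dl Cfsg.Agent.H35.ExcIdx
open CoxeterSystem Cfsg.Agent.ChevalleyStructure.CoxeterGeom Cfsg.Agent.Tits.Roots Cfsg.Agent.Tits.Core
  Cfsg.Agent.Tits.Exchange Cfsg.Agent.Nodes.Reps Cfsg.Agent.Nodes.BNOf Cfsg.Agent.Nodes.StabComb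
  Cfsg.Agent.Nodes.Bruhat Cfsg.Agent.Nodes.OppDec Cfsg.Agent.Nodes.LeviDec

section gen

variable {I W Y : Type*} [Fintype I] [DecidableEq I] [Group W] [Group Y] {M : CoxeterMatrix I}
  {cs : CoxeterSystem M W} {A : I → I → ℤ} {h : IsCartan M A} {p : ℕ} {T : Subgroup Y} {n : I → Y}
  {X : (I → ℤ) → Subgroup Y}

theorem ne_aut_symm {χ χ' : Y → ℂ} (h1 : ∀ σ : Y ≃* Y, ∃ g, χ (σ g) ≠ χ' g) (σ : Y ≃* Y) : ∃ g, χ' (σ g) ≠ χ g := by
  obtain ⟨g, hg⟩ := h1 σ.symm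
  refine ⟨σ.symm g, fun h2 => hg ?_⟩
  rw [σ.apply_symm_apply] at h2
  exact h2.symm

variable (R : RGD cs h p T n X)

include R

/-- a character of type `J` against a character with `V_K`-fixed vectors, `|K| < |J|` -/
theorem ht_ne_fix [Finite W] [Finite Y] [Fact p.Prime] (hG : GG cs h T X = ⊤) {χ χ' : Y → ℂ} {J K : Set I}
    (hχ : HT cs h X χ J) (hχ' : HasFix χ' (VJ cs h X K)) (hlt : K.ncard < J.ncard) (σ : Y ≃* Y) :
    ∃ g, χ (σ g) ≠ χ' g := by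
  by_contra hcon
  push Not at hcon
  have e : χ ∘ σ = χ' := funext hcon
  obtain ⟨f, hf1, hf2, hf3⟩ := exists_nodes R hG σ
  obtain ⟨w, hw⟩ := hχ.le _ (hf3 χ (Core.isIrr_isClassFunction hχ.irr) K (by rw [e]; exact hχ'))
  have h1 := (card_le_of_maps R hw).2
  rw [hf2] at h1
  omega

/-- **`H53.HC.exists_irr_one` with the type.** -/
theorem exists_HT_one [Finite W] [Fintype Y] (hG : GG cs h T X = ⊤) {J K K' : Set I} {j : I}
    (hJ : ∀ i, i ∈ J ↔ i ≠ j) (hJK : J = K ∪ K') (ho : Orth A K K') {k₀ k₁ : I} (hK : K = {k₀, k₁})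
    (hk : IsoPair A J k₀ k₁) (hk1 : A k₁ j = 0) (h3 : ¬ (3 : ℤ) ∣ A k₀ j)
    (hun : ∀ a b, IsoPair A J a b → (a = k₀ ∧ b = k₁) ∨ (a = k₁ ∧ b = k₀))
    {θ : ↥(MJ cs h X K) → ℂ} (hθ : Cusp cs h X K θ) (hns : NonSwap cs h X K k₀ k₁ θ)
    {θ' : ↥(MJ cs h X K') → ℂ} (hθ' : Cusp cs h X K' θ') :
    ∃ χ : Y → ℂ, HT cs h X χ J ∧ ∃ k : ℕ, 0 < k ∧ χ 1 = (PJ cs h T X J).index * (k * (θ 1 * θ' 1)) := by
  subst hJK
  obtain ⟨ψ, hψ, hval⟩ := hθ.exists_prod R ho hθ'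
  have hval1 : ψ 1 = θ 1 * θ' 1 := by
    obtain ⟨hab, e⟩ := hval 1 (one_mem _) 1 (one_mem _)
    simp only [mul_one] at e
    exact e
  rw [← hval1]
  refine exists_HT_MJ R hG (K ∪ K') hψ.irr hψ.van ?_
  intro w g hg hw hp
  obtain ⟨h0, h1⟩ := swap_of_iso hJ hk hk1 h3 hun hp hw
  exact not_stable_swap R rfl ho hK hns hθ'.irr hval hg hp h0 h1

/-- **The character from `θ ⊗ θ' ⊗ ρ`, with `V_K`-fixed vectors.** -/
theorem exists_irr_three' [Finite W] [Fintype Y] (hG : GG cs h T X = ⊤) {J N : Set I} {j j₀ k₀ k₁ : I}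
    (hJ : ∀ i, i ∈ J ↔ i ≠ j) (hJK : J = ({k₀, k₁} ∪ N) ∪ {j₀}) (ho : Orth A {k₀, k₁} N)
    (ho' : Orth A ({k₀, k₁} ∪ N) {j₀}) (hC : Comb cs h J ({k₀, k₁} ∪ N))
    (hk : IsoPair A J k₀ k₁) (hk1 : A k₁ j = 0) (h3 : ¬ (3 : ℤ) ∣ A k₀ j)
    (hun : ∀ a b, IsoPair A J a b → (a = k₀ ∧ b = k₁) ∨ (a = k₁ ∧ b = k₀))
    {θ : ↥(MJ cs h X {k₀, k₁}) → ℂ} (hθ : Cusp cs h X {k₀, k₁} θ) (hns : NonSwap cs h X {k₀, k₁} k₀ k₁ θ)
    {θ' : ↥(MJ cs h X N) → ℂ} (hθ' : Cusp cs h X N θ') {ρ : ↥(MJ cs h X {j₀}) → ℂ} (hρ : IsIrrCharacter _ ρ)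
    (hρz : ∀ z ∈ Subgroup.center ↥(MJ cs h X {j₀}), ρ z = ρ 1)
    (hρs : ∀ [Fintype (UJ cs h X {j₀})], ∑ u : UJ cs h X {j₀}, ρ ⟨u, (RGD.Sup_mono fun _ hx => PosJ_subset {j₀} hx :
      UJ cs h X {j₀} ≤ MJ cs h X {j₀}) u.2⟩ ≠ 0) :
    ∃ χ : Y → ℂ, IsIrrCharacter Y χ ∧ HasFix χ (VJ cs h X ({k₀, k₁} ∪ N)) ∧ ∃ k : ℕ, 0 < k ∧ k ∣ Nat.card T ∧
      χ 1 = (PJ cs h T X J).index * (k * (θ 1 * θ' 1 * ρ 1)) := by
  subst hJK
  obtain ⟨φ, hφ, hφv⟩ := hθ.exists_prod R ho hθ'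
  obtain ⟨ψ, hψ, hψv, hψval⟩ := exists_prod_left R ho' hφ hρ hρz
  have hφ1 : φ 1 = θ 1 * θ' 1 := by
    obtain ⟨hab, e⟩ := hφv 1 (one_mem _) 1 (one_mem _)
    simp only [mul_one] at e
    exact e
  have hψ1 : ψ 1 = θ 1 * θ' 1 * ρ 1 := by
    obtain ⟨hab, e⟩ := hψval 1 (one_mem _) 1 (one_mem _)
    simp only [mul_one] at e
    rw [← hφ1]
    exact e
  have hle1 : MJ cs h X {k₀, k₁} ≤ MJ cs h X ({k₀, k₁} ∪ N) := by rw [ho.MJ_union]; exact le_sup_left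
  have hle2 : MJ cs h X ({k₀, k₁} ∪ N) ≤ MJ cs h X (({k₀, k₁} ∪ N) ∪ {j₀}) := by rw [ho'.MJ_union]; exact le_sup_left
  rw [← hψ1]
  obtain ⟨χ, hχ, hd, ψ', hψ', he, hV, c, s, hres, hs⟩ :=
    exists_irr_partial' R hG (K := {k₀, k₁} ∪ N) (fun i hi => Or.inl hi) hC hψ hψv (by
      intro w g hg hw hp
      obtain ⟨h0, h1⟩ := swap_of_iso hJ hk hk1 h3 hun hp hw
      refine not_stable_swap' R (hle1.trans hle2) hns (c := θ' 1 * ρ 1)
        (mul_ne_zero (Core.isIrr_apply_one_ne_zero hθ'.irr) (Core.isIrr_apply_one_ne_zero hρ)) ?_ hg hp h0 h1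
      intro a ha
      obtain ⟨hab, e⟩ := hφv a ha 1 (one_mem _)
      obtain ⟨hab', e'⟩ := hψval a (hle1 ha) 1 (one_mem _)
      simp only [mul_one] at e e'
      have e2 : ψ ⟨a, (hle1.trans hle2) ha⟩ = φ ⟨a, hle1 ha⟩ * ρ 1 := e'
      have e3 : φ ⟨a, hle1 ha⟩ = θ ⟨a, ha⟩ * θ' 1 := e
      rw [e2, e3]
      ring)
  exact ⟨χ, hχ, hasFix_partial R ho' hφ.irr hρs hψval hχ hψ' he hV hres hs, hd⟩

end gen

variable {r q l : ℕ} {M : CoxeterMatrix (Fin l)} {A : Fin l → Fin l → ℤ} {h : IsCartan M A} {f : Fin l → ℕ}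
  {S : Type*} [Group S] {T : Subgroup S} {n : Fin l → S} {X : (Fin l → ℤ) → Subgroup S}

/-- **Three inequivalent characters.** -/
theorem many_three [Finite S] (hr : r.Prime) (hq : 2 ≤ q) (hrq : r ∣ q) {j j₀ i₀ k₀ k₁ : Fin l} {N : Set (Fin l)}
    (D : ExcData r q h f {i | i ≠ j} T n X) (hJ : ({i | i ≠ j} : Set (Fin l)) = ({k₀, k₁} ∪ N) ∪ {j₀})
    (hj₀' : j₀ ∉ ({k₀, k₁} ∪ N : Set (Fin l)))
    (ho : ∀ i ∈ ({k₀, k₁} : Set (Fin l)), ∀ i' ∈ N, M i i' = 2)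
    (ho' : ∀ i ∈ ({k₀, k₁} ∪ N : Set (Fin l)), M i j₀ = 2) (hj₀ : M j₀ i₀ = 3) (hf : f j₀ = q)
    (hC : Comb M.toCoxeterSystem h {i | i ≠ j} ({k₀, k₁} ∪ N)) (hk : M k₀ k₁ = 3) (hk1 : M k₁ j = 2)
    (hk0 : M k₀ j = 3 ∨ M k₀ j = 4)
    (hun : ∀ a b, a ≠ j → b ≠ j → M a b = 3 → (∀ c, c ≠ j → c ≠ a → c ≠ b → M a c = 2 ∧ M b c = 2) →
      (a = k₀ ∧ b = k₁) ∨ (a = k₁ ∧ b = k₀))
    (hA2 : InA2 h X q k₀ k₁) (hN : In h X N) (hj : In h X {j₀}) {p : ℕ} (hp : p.Prime) (hpS : p ∣ Nat.card S)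
    (hpr : p ≠ r) : Many p S 3 := by
  classical
  have := D.fin
  have : Fact r.Prime := ⟨hr⟩
  have : Fintype S := Fintype.ofFinite S
  obtain ⟨θ, hθ, hns, d, t, hd, hdt, ht⟩ := hA2
  have hNj : In h X (N ∪ {j₀}) := In.union D hN hj fun i hi j hj => by
    have : j = j₀ := hj
    rw [this]
    exact ho' i (Or.inr hi)
  obtain ⟨θ', hθ'⟩ := hN
  obtain ⟨θ'', hθ''⟩ := hNj
  obtain ⟨e, he0, he⟩ := Core.isIrr_apply_one hθ'.irr
  obtain ⟨e', he0', he'⟩ := Core.isIrr_apply_one hθ''.irr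
  obtain ⟨ρ, hρ, hρz, hρ1, hρs⟩ := st_node' D.rgd j₀ i₀ hj₀ ((D.size j₀).trans hf)
  have hmem : ∀ i, i ∈ ({i | i ≠ j} : Set (Fin l)) ↔ i ≠ j := fun i => Iff.rfl
  have hk0J : k₀ ∈ ({i | i ≠ j} : Set (Fin l)) := by rw [hJ]; exact Or.inl (Or.inl (Or.inl rfl))
  have hk1J : k₁ ∈ ({i | i ≠ j} : Set (Fin l)) := by rw [hJ]; exact Or.inl (Or.inl (Or.inr rfl))
  have ho2 : Orth A ({k₀, k₁} ∪ N) {j₀} := orth_of h fun i hi j' hj' => by
    have : j' = j₀ := hj'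
    rw [this]
    exact ho' i hi
  have hiso : IsoPair A {i | i ≠ j} k₀ k₁ := isoPair_of h hk0J hk1J hk fun c hc hc0 hc1 => by
    rw [hJ] at hc
    rcases hc with (hc | hc) | hc
    · rcases hc with rfl | rfl
      · exact absurd rfl hc0
      · exact absurd rfl hc1
    · exact ⟨ho _ (Or.inl rfl) c hc, ho _ (Or.inr rfl) c hc⟩
    · have : c = j₀ := hc
      rw [this]
      exact ⟨ho' _ (Or.inl (Or.inl rfl)), ho' _ (Or.inl (Or.inr rfl))⟩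
  have hunI : ∀ a b, IsoPair A {i | i ≠ j} a b → (a = k₀ ∧ b = k₁) ∨ (a = k₁ ∧ b = k₀) := fun a b hab => by
    obtain ⟨h1, h2, h3, h4⟩ := of_isoPair h hab
    exact hun a b h1 h2 h3 h4
  obtain ⟨χ, hχ, hχf, k, hk, hkT, hχ1⟩ := exists_irr_three' D.rgd D.gg hmem hJ (orth_of h ho) ho2 hC hiso
    (cartan_two h hk1).1 (not_three_dvd h hk0) hunI hθ hns hθ' (ρ := 1) Core.isIrr_one (fun z _ => rfl) (by
      intro hfu
      simp only [Pi.one_apply, Finset.sum_const, nsmul_eq_mul, mul_one]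
      exact_mod_cast Finset.card_ne_zero.2 ⟨1, Finset.mem_univ _⟩)
  obtain ⟨χ', hχ', hχf', k', hk', hkT', hχ1'⟩ := exists_irr_three' D.rgd D.gg hmem hJ (orth_of h ho) ho2 hC hiso
    (cartan_two h hk1).1 (not_three_dvd h hk0) hunI hθ hns hθ' hρ hρz hρs
  obtain ⟨χ'', hχ'', k'', hk'', hχ1''⟩ := exists_HT_one D.rgd D.gg hmem (K := {k₀, k₁}) (K' := N ∪ {j₀})
    (by rw [hJ, Set.union_assoc]) (orth_of h fun i hi i' hi' => by
      rcases hi' with hi' | hi'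
      · exact ho i hi i' hi'
      · have : i' = j₀ := hi'
        rw [this]
        exact ho' i (Or.inl hi)) rfl hiso (cartan_two h hk1).1 (not_three_dvd h hk0) hunI hθ hns hθ''
  obtain ⟨P, hP⟩ : ∃ P : ℕ, P = (PJ M.toCoxeterSystem h T X {i | i ≠ j}).index := ⟨_, rfl⟩
  have hP0 : 0 < P := by
    rw [hP]
    exact Nat.pos_of_ne_zero Subgroup.index_ne_zero_of_finite
  have hd0 : 0 < d := by
    refine Nat.pos_of_ne_zero ?_
    rintro rfl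
    exact Core.isIrr_apply_one_ne_zero hθ.irr (by rw [hd, Nat.cast_zero])
  have hdvd : ∀ a b : ℕ, p ∣ P * (a * (d * b)) := by
    intro a b
    by_cases h3 : p ∣ q - 1
    · have h4 := dvd_of_mul_eq hp hq h3 ht hdt
      exact Dvd.dvd.mul_left (Dvd.dvd.mul_left (Dvd.dvd.mul_right h4 _) _) _
    · rw [hP]
      exact Dvd.dvd.mul_right (D.idx p hp hpS (fun h4 => hpr ((Nat.prime_dvd_prime_iff_eq hp hr).1 h4)) h3) _
  have e1 : χ 1 = (P * (k * (d * e)) : ℕ) := by rw [hχ1, hP, hd, he, Pi.one_apply]; push_cast; ring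
  have e2 : χ' 1 = (P * (k' * (d * e)) * q : ℕ) := by rw [hχ1', hP, hd, he, hρ1]; push_cast; ring
  have e3 : χ'' 1 = (P * (k'' * (d * e')) : ℕ) := by rw [hχ1'', hP, hd, he']; push_cast; ring
  have hne : P * (k * (d * e)) ≠ P * (k' * (d * e)) * q := by
    intro heq
    have h1 : P * (d * e) * k = P * (d * e) * (k' * q) := by
      calc P * (d * e) * k = P * (k * (d * e)) := by ring
        _ = P * (k' * (d * e)) * q := heq
        _ = P * (d * e) * (k' * q) := by ring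
    have h2 : k = k' * q := Nat.eq_of_mul_eq_mul_left (Nat.mul_pos hP0 (Nat.mul_pos hd0 he0)) h1
    apply not_dvd_T D.rgd D.gg
    refine Dvd.dvd.trans ?_ hkT
    rw [h2]
    exact Dvd.dvd.mul_left hrq _
  have c1 := H670.PSing.charDegree_eq_of e1
  have c2 := H670.PSing.charDegree_eq_of e2
  have c3 := H670.PSing.charDegree_eq_of e3
  have hlt : ({k₀, k₁} ∪ N : Set (Fin l)).ncard < ({i | i ≠ j} : Set (Fin l)).ncard := by
    refine Set.ncard_lt_ncard ?_ (Set.toFinite _)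
    rw [hJ]
    refine ⟨Set.subset_union_left, fun hcon => hj₀' (hcon (Or.inr rfl))⟩
  have n01 : ∀ σ : S ≃* S, ∃ g, χ (σ g) ≠ χ' g := fun σ => ⟨1, by
    rw [map_one, e1, e2]
    exact_mod_cast hne⟩
  have n20 := ht_ne_fix D.rgd D.gg hχ'' hχf hlt
  have n21 := ht_ne_fix D.rgd D.gg hχ'' hχf' hlt
  refine ⟨![⟨χ, hχ⟩, ⟨χ', hχ'⟩, ⟨χ'', hχ''.irr⟩], ?_, ?_⟩
  · intro i
    fin_cases i
    · show p ∣ charDegree χ
      rw [c1]; exact hdvd _ _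
    · show p ∣ charDegree χ'
      rw [c2]; exact Dvd.dvd.mul_right (hdvd _ _) _
    · show p ∣ charDegree χ''
      rw [c3]; exact hdvd _ _
  · intro i j hij σ
    fin_cases i <;> fin_cases j
    · exact absurd rfl hij
    · exact n01 σ
    · exact ne_aut_symm n20 σ
    · exact ne_aut_symm n01 σ
    · exact absurd rfl hij
    · exact ne_aut_symm n21 σ
    · exact n20 σ
    · exact n21 σ
    · exact absurd rfl hij

end Cfsg.Agent.H64.Dl
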